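import Cfsg.Agent.LW.Ind
import Cfsg.Agent.H26.WittPerm
import Cfsg.Agent.H23.Basic
import Cfsg.Agent.S0743

/-! Livingstone and Wagner: a `k`-transitive group (`k ≥ 4`) induces at least the alternating group
on some `(k+1)`-set. -/

set_option autoImplicit false

namespace Cfsg.Agent.LW

open MulAction Cfsg.Agent.H26 Equiv Cfsg.Agent.H69

universe u

theorem alt_core {α : Type*} [Fintype α] [DecidableEq α] (G : Subgroup (Perm α)) {k : ℕ}
    (hk : 4 ≤ k) (hkn : k < Fintype.card α) (hG : IsMultiplyPretransitive G α k)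
    (h1 : ∀ g : G, k + 1 ≤ (fixedBy α g).ncard → g = 1) :
    ∃ Δ : Finset α, Δ.card = k + 1 ∧ alternatingGroup Δ ≤ Ind G Δ := by
  have hc := Nat.card_eq_fintype_card (α := α)
  obtain ⟨Δ, hΔ, -⟩ := exists_finset_sub (S := (Set.univ : Set α)) (k := k + 1)
    (by rw [Set.ncard_univ]; omega)
  by_cases ho : ∀ g : G, k ≤ (fixedBy α g).ncard → Odd (orderOf g)
  · have h : Hk G α k := ⟨fun g hg => Subtype.ext (Equiv.ext hg), hG, ho⟩
    rcases Nat.lt_or_ge (Nat.card α) (k + 3) with h3 | h3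
    · have hA : alternatingGroup α ≤ G := by
        apply IsMultiplyPretransitive.alternatingGroup_le
        exact isMultiplyPretransitive_of_le (n := k) (by omega) (by omega)
      refine ⟨Δ, hΔ, fun σ hσ => ⟨⟨Perm.ofSubtype σ, hA ?_⟩, fun x => ?_⟩⟩
      · rw [Perm.mem_alternatingGroup, Perm.sign_ofSubtype]
        exact hσ
      · exact Perm.ofSubtype_apply_coe σ x
    rcases Nat.lt_or_ge (Nat.card α) (k + 4) with h4 | h4
    · refine ⟨Δ, hΔ, ?_⟩
      rw [ind_top_of_tr fun u hu v hv _ => exists_tr (h.tr_succ hk (by omega)) hΔ hu hv]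
      exact le_top
    · obtain ⟨Δ', h5, h6⟩ := h.exists_ind_top hk h4
      exact ⟨Δ', h5, h6 ▸ le_top⟩
  · push Not at ho
    obtain ⟨g, hg, hg'⟩ := ho
    obtain ⟨j, j1, j2⟩ := exists_invol_of_not_odd hg'
    refine ⟨Δ, hΔ, ?_⟩
    rw [ind_top_of_invol (Set.powersetCard.isPretransitive_of_isMultiplyPretransitive G hG) h1 j1 j2
      (hg.trans (ncard_fix_le_pow g j)) hΔ]
    exact le_top

section

variable {G Ω : Type*} [Group G] [MulAction G Ω]

/-- The fixed points of `Q` as a set acted on by the normaliser. -/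
def fixN (Ω : Type*) [MulAction G Ω] (Q : Subgroup G) :
    SubMulAction (Subgroup.normalizer (Q : Set G)) Ω where
  carrier := fixedPoints Q Ω
  smul_mem' := by
    intro n x hx q
    change (q : G) • (n : G) • x = (n : G) • x
    have : ((n : G)⁻¹ * q * n) • x = x := hx ⟨_, conj_mem_of_mem_normalizer' n.2 q.2⟩
    rwa [mul_smul, mul_smul, inv_smul_eq_iff] at this

theorem mt_fixN [Finite G] [Finite Ω] {k p : ℕ} [hp : Fact p.Prime] (hk : 1 ≤ k)
    (hG : IsMultiplyPretransitive G Ω k) {Q : Subgroup G} (hQ : IsPGroup p Q)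
    (hF : k + 1 ≤ (fixedPoints Q Ω).ncard)
    (hmax : ∀ U : Subgroup G, IsPGroup p U → Q < U → (fixedPoints U Ω).ncard ≤ k) :
    IsMultiplyPretransitive (Subgroup.normalizer (Q : Set G)) (fixN Ω Q) k := by
  classical
  let ι : (Fin k ↪ fixN Ω Q) → (Fin k ↪ Ω) := fun a => a.trans (Function.Embedding.subtype _)
  have hle : ∀ a, Q ≤ stabilizer G (ι a) := fun a q hq => by
    rw [mem_stabilizer_iff]
    ext i
    exact (a i).2 ⟨q, hq⟩
  by_cases hS : ∃ a, SylOf p Q (stabilizer G (ι a))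
  · obtain ⟨x, hx⟩ := hS
    refine ⟨fun a b => ?_⟩
    obtain ⟨g, hg, e⟩ := witt_normalizer hx (hG.exists_smul_eq _ _) (hG.exists_smul_eq _ _)
      (hle a) (hle b)
    refine ⟨⟨g, hg⟩, ?_⟩
    ext i
    exact DFunLike.congr_fun e i
  · push Not at hS
    have := Fintype.ofFinite (fixN Ω Q)
    refine S0743.gleason hp.out hk (by
      rw [← Nat.card_eq_fintype_card]
      exact lt_of_lt_of_eq hF (Nat.card_coe_set_eq _).symm) fun s hs => ?_
    let e : Fin k ≃ s := (Finset.equivFinOfCardEq hs).symm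
    let a : Fin k ↪ fixN Ω Q := ⟨fun i => e i, fun i j hij => e.injective (Subtype.ext hij)⟩
    obtain ⟨T, hT, hQT⟩ := exists_sylOf_ge hQ (hle a)
    have hlt := H23.lt_normalizer_inf hT.isPGroup
      (lt_of_le_of_ne hQT fun e => hS a (e ▸ hT))
    have hU : IsPGroup p (Subgroup.normalizer (Q : Set G) ⊓ T : Subgroup G) :=
      hT.isPGroup.to_le inf_le_right
    have h1 := hmax _ hU hlt
    refine ⟨(Subgroup.normalizer (Q : Set G) ⊓ T).subgroupOf _,
      (isPGroup_subgroupOf_iff inf_le_left).2 hU, ?_⟩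
    symm
    refine Set.eq_of_subset_of_ncard_le (fun x hx u => Subtype.ext ?_) ?_
    · have := DFunLike.congr_fun (mem_stabilizer_iff.1 (hT.le u.2.2)) (e.symm ⟨x, hx⟩)
      change ((u : Subgroup.normalizer (Q : Set G)) : G) • ((e (e.symm ⟨x, hx⟩) : fixN Ω Q) : Ω) =
        ((e (e.symm ⟨x, hx⟩) : fixN Ω Q) : Ω) at this
      rw [e.apply_symm_apply] at this
      exact this
    · rw [Set.ncard_coe_finset, hs, ← Set.ncard_image_of_injective _ Subtype.val_injective]
      refine le_trans (Set.ncard_le_ncard ?_) h1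
      rintro _ ⟨x, hx, rfl⟩ u
      exact congrArg Subtype.val (hx ⟨⟨u, u.2.1⟩, u.2⟩)

end

theorem exists_alt_aux {k : ℕ} (hk : 4 ≤ k) (n : ℕ) :
    ∀ (α : Type u) [Fintype α] [DecidableEq α] (G : Subgroup (Perm α)), Fintype.card α = n → k < n →
      IsMultiplyPretransitive G α k →
      ∃ Δ : Finset α, Δ.card = k + 1 ∧ alternatingGroup Δ ≤ Ind G Δ := by
  induction n using Nat.strong_induction_on with
  | _ n ih =>
  intro α _ _ G hn hkn hG
  by_cases h1 : ∀ g : G, k + 1 ≤ (fixedBy α g).ncard → g = 1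
  · exact alt_core G hk (hn ▸ hkn) hG h1
  push Not at h1
  obtain ⟨g, hg, g1⟩ := h1
  obtain ⟨p, hp, hpg⟩ := Nat.exists_prime_and_dvd (fun e => g1 (orderOf_eq_one_iff.1 e))
  have := Fact.mk hp
  have ho : orderOf (g ^ (orderOf g / p)) = p := orderOf_pow_orderOf_div (orderOf_pos g).ne' hpg
  obtain ⟨Q, hQ0, hQ⟩ := Finite.exists_le_maximal
    (p := fun U : Subgroup G => IsPGroup p U ∧ k + 1 ≤ (fixedPoints U α).ncard)
    (a := Subgroup.zpowers (g ^ (orderOf g / p)))
    ⟨IsPGroup.of_card (n := 1) (by rw [Nat.card_zpowers, ho, pow_one]),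
      hg.trans (Set.ncard_le_ncard (by
        rintro x hx ⟨_, m, rfl⟩
        exact fixedBy_subset_fixedBy_zpow α _ m (pow_smul_of_fix hx _)))⟩
  have hT := mt_fixN (by omega) hG hQ.prop.1 hQ.prop.2 fun U hU hlt => by
    by_contra! hc
    exact hlt.not_ge (hQ.le_of_ge ⟨hU, hc⟩ hlt.le)
  classical
  have := Fintype.ofFinite (fixN α Q)
  have hcard : Fintype.card (fixN α Q) = (fixedPoints Q α).ncard := by
    rw [← Nat.card_eq_fintype_card]; exact Nat.card_coe_set_eq _
  have hlt : (fixedPoints Q α).ncard < n := by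
    rw [← hn, ← Nat.card_eq_fintype_card, ← Set.ncard_univ]
    refine Set.ncard_lt_ncard (Set.ssubset_univ_iff.2 fun e => ?_)
    have h2 : g ^ (orderOf g / p) = 1 := Subtype.ext (Equiv.ext fun x =>
      (e ▸ Set.mem_univ x : x ∈ fixedPoints Q α) ⟨_, hQ0 (Subgroup.mem_zpowers _)⟩)
    rw [h2, orderOf_one] at ho
    exact hp.one_lt.ne ho
  obtain ⟨Δ, hΔ, hA⟩ := ih _ hlt (fixN α Q)
    (toPermHom (Subgroup.normalizer (Q : Set G)) (fixN α Q)).range hcard hQ.prop.2
    (mt_of_forall_injOn fun s hs f hf => by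
      obtain ⟨u, hu⟩ := exists_smul_eq_on hT s hs f hf
      exact ⟨⟨_, u, rfl⟩, hu⟩)
  refine ⟨Δ.map (Function.Embedding.subtype _), by rw [Finset.card_map, hΔ], fun σ hσ => ?_⟩
  let e : Δ ≃ Δ.map (Function.Embedding.subtype fun x => x ∈ fixN α Q) :=
    Equiv.ofBijective (fun x => ⟨x.1.1, Finset.mem_map_of_mem _ x.2⟩)
      ⟨fun x y hxy => Subtype.ext (Subtype.ext (Subtype.mk.inj hxy)), by
        rintro ⟨y, hy⟩
        obtain ⟨x, hx, rfl⟩ := Finset.mem_map.1 hy
        exact ⟨⟨x, hx⟩, rfl⟩⟩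
  obtain ⟨⟨_, u, rfl⟩, hu⟩ := hA (x := e.symm.permCongr σ) (by
    rw [Perm.mem_alternatingGroup, Perm.sign_permCongr]; exact hσ)
  refine ⟨u, fun y => ?_⟩
  obtain ⟨x, rfl⟩ := e.surjective y
  have h3 := congrArg Subtype.val (hu x)
  have h4 : ((σ (e x) : Δ.map (Function.Embedding.subtype fun x => x ∈ fixN α Q)) : α) =
      ((e (e.symm.permCongr σ x) : Δ.map (Function.Embedding.subtype fun x => x ∈ fixN α Q)) : α) := by
    simp
  rw [h4]
  exact h3

theorem exists_alt {α : Type*} [Fintype α] [DecidableEq α] (G : Subgroup (Perm α)) {k : ℕ}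
    (hk : 4 ≤ k) (hkn : k < Fintype.card α) (hG : IsMultiplyPretransitive G α k) :
    ∃ Δ : Finset α, Δ.card = k + 1 ∧ alternatingGroup Δ ≤ Ind G Δ :=
  exists_alt_aux hk _ α G rfl hkn hG

end Cfsg.Agent.LW
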