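import Cfsg.Agent.LW.Hall3

/-! The group induced on a finite subset; cases in which it is the full symmetric group. -/

set_option autoImplicit false
set_option linter.unusedSimpArgs false

namespace Cfsg.Agent.LW

open MulAction Cfsg.Agent.H26 Equiv
open scoped Pointwise

variable {G Ω : Type*} [Group G] [MulAction G Ω]

variable (G) in
/-- The permutations of `Δ` induced by elements of `G`. -/
def Ind (Δ : Finset Ω) : Subgroup (Perm Δ) where
  carrier := {σ | ∃ g : G, ∀ x : Δ, g • (x : Ω) = σ x}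
  one_mem' := ⟨1, fun x => one_smul _ _⟩
  mul_mem' := by
    rintro σ τ ⟨g, hg⟩ ⟨h, hh⟩
    exact ⟨g * h, fun x => by rw [mul_smul, hh, hg]; rfl⟩
  inv_mem' := by
    rintro σ ⟨g, hg⟩
    exact ⟨g⁻¹, fun x => by rw [inv_smul_eq_iff, hg]; simp⟩

theorem mem_Ind {Δ : Finset Ω} {σ : Perm Δ} :
    σ ∈ Ind G Δ ↔ ∃ g : G, ∀ x : Δ, g • (x : Ω) = σ x := Iff.rfl

/-- `g` induces the transposition `(u v)` on `Δ`. -/
structure Tr (Δ : Finset Ω) (u v : Ω) (g : G) : Prop where
  l : g • u = v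
  r : g • v = u
  fix : ∀ x ∈ Δ, x ≠ u → x ≠ v → g • x = x

theorem Tr.symm {Δ : Finset Ω} {u v : Ω} {g : G} (h : Tr Δ u v g) : Tr Δ v u g :=
  ⟨h.r, h.l, fun x hx a b => h.fix x hx b a⟩

theorem Tr.swap_mem [DecidableEq Ω] {Δ : Finset Ω} {u v : Δ} {g : G} (h : Tr Δ u v g) :
    swap u v ∈ Ind G Δ := by
  refine ⟨g, fun x => ?_⟩
  by_cases e1 : x = u
  · rw [e1, swap_apply_left, h.l]
  by_cases e2 : x = v
  · rw [e2, swap_apply_right, h.r]
  rw [swap_apply_of_ne_of_ne e1 e2]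
  exact h.fix x x.2 (fun e => e1 (Subtype.ext e)) (fun e => e2 (Subtype.ext e))

theorem ind_top_of_tr {Δ : Finset Ω}
    (h : ∀ u ∈ Δ, ∀ v ∈ Δ, u ≠ v → ∃ g : G, Tr Δ u v g) : Ind G Δ = ⊤ := by
  classical
  rw [eq_top_iff, ← Perm.closure_isSwap, Subgroup.closure_le]
  rintro _ ⟨u, v, huv, rfl⟩
  obtain ⟨g, hg⟩ := h u u.2 v v.2 fun e => huv (Subtype.ext e)
  exact hg.swap_mem

theorem exists_tr {k : ℕ} (h : IsMultiplyPretransitive G Ω k) {Δ : Finset Ω} (hΔ : Δ.card = k)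
    {u v : Ω} (hu : u ∈ Δ) (hv : v ∈ Δ) : ∃ g : G, Tr Δ u v g := by
  classical
  obtain ⟨g, hg⟩ := exists_smul_eq_on h Δ hΔ (swap u v) (swap u v).injective.injOn
  exact ⟨g, by rw [hg u hu, swap_apply_left], by rw [hg v hv, swap_apply_right],
    fun x hx a b => by rw [hg x hx, swap_apply_of_ne_of_ne a b]⟩

theorem mt_of_ind_top [DecidableEq Ω] {k : ℕ} (hh : IsPretransitive G (Set.powersetCard Ω k))
    {Δ : Finset Ω} (hΔ : Δ.card = k) (h : Ind G Δ = ⊤) : IsMultiplyPretransitive G Ω k := by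
  refine mt_of_homog_of_full hh Δ hΔ fun f hf hm => ?_
  let f' : Δ → Δ := fun x => ⟨f x, hm x.2⟩
  have hf' : Function.Injective f' := fun x y e => Subtype.ext (hf x.2 y.2 (congrArg Subtype.val e))
  obtain ⟨g, hg⟩ : Equiv.ofBijective f' (Finite.injective_iff_bijective.1 hf') ∈ Ind G Δ := by
    rw [h]; trivial
  exact ⟨g, fun x hx => hg ⟨x, hx⟩⟩

theorem card_le_ncard [Finite Ω] {s : Finset Ω} {S : Set Ω} (h : ∀ x ∈ s, x ∈ S) :
    s.card ≤ S.ncard := by
  rw [← Set.ncard_coe_finset]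
  exact Set.ncard_le_ncard h

theorem exists_finset_sub [Finite Ω] {S : Set Ω} {k : ℕ} (h : k ≤ S.ncard) :
    ∃ s : Finset Ω, s.card = k ∧ ∀ x ∈ s, x ∈ S := by
  obtain ⟨s, h1, h2⟩ := Set.exists_subset_card_eq h
  exact ⟨(Set.toFinite s).toFinset, by rw [← Set.ncard_eq_toFinset_card, h2],
    fun x hx => h1 (by simpa using hx)⟩

/-- In a `k`-homogeneous group an element fixing `k` points is conjugate to one fixing a given
`k`-set. -/
theorem exists_conj_fix [Finite Ω] [DecidableEq Ω] {k : ℕ}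
    (hh : IsPretransitive G (Set.powersetCard Ω k)) {t : G} (ht : k ≤ (fixedBy Ω t).ncard)
    {Δ : Finset Ω} (hΔ : Δ.card = k) : ∃ g : G, ∀ x ∈ Δ, (g * t * g⁻¹) • x = x := by
  obtain ⟨s, h1, h2⟩ := exists_finset_sub ht
  obtain ⟨g, rfl⟩ := homog_iff.1 hh s Δ h1 hΔ
  refine ⟨g, fun x hx => ?_⟩
  have : t • g⁻¹ • x = g⁻¹ • x := h2 _ (by rwa [Finset.inv_smul_mem_iff])
  rw [mul_smul, mul_smul, this, smul_inv_smul]

/-- If only the identity fixes `k + 1` points and an involution fixes `k` points, a `k`-homogeneous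
group induces the symmetric group on every `(k+1)`-set. -/
theorem ind_top_of_invol [Finite Ω] [DecidableEq Ω] {k : ℕ}
    (hh : IsPretransitive G (Set.powersetCard Ω k))
    (h1 : ∀ g : G, k + 1 ≤ (fixedBy Ω g).ncard → g = 1) {t : G} (t1 : t ≠ 1) (t2 : t * t = 1)
    (ht : k ≤ (fixedBy Ω t).ncard) {Δ : Finset Ω} (hΔ : Δ.card = k + 1) : Ind G Δ = ⊤ := by
  refine ind_top_of_tr fun u hu v hv huv => ?_
  have hv' : v ∈ Δ.erase u := Finset.mem_erase.2 ⟨huv.symm, hv⟩
  have hc : ((Δ.erase u).erase v).card + 1 = k := by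
    have a1 := Finset.card_erase_add_one hu
    have a2 := Finset.card_erase_add_one hv'
    omega
  obtain ⟨s, -, -, -, -, s1, -, s2, s3⟩ := swap_of_invol (G := G) (((Δ.erase u).erase v : Finset Ω) : Set Ω)
    (fun g hg a b ha hb hab ga gb => h1 g (by
      have := card_le_ncard (s := insert a (insert b ((Δ.erase u).erase v))) (S := fixedBy Ω g)
        (by
          intro x hx
          simp only [Finset.mem_insert] at hx
          rcases hx with rfl | rfl | hx
          exacts [ga, gb, hg x hx])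
      rw [Finset.card_insert_of_notMem (by
        rw [Finset.mem_insert, not_or]; exact ⟨hab, ha⟩), Finset.card_insert_of_notMem hb] at this
      omega))
    (fun w hw => by
      obtain ⟨g, hg⟩ := exists_conj_fix hh ht (Δ := insert w ((Δ.erase u).erase v))
        (by rw [Finset.card_insert_of_notMem hw, hc])
      exact ⟨g * t * g⁻¹, by simpa using t1, H42.conj_mul_self t2 g,
        fun x hx => hg x (Finset.mem_insert_of_mem hx), hg w (Finset.mem_insert_self _ _)⟩)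
    (u := u) (v := v) (by simp) (by simp) huv
  exact ⟨s, s2, s3, fun x hx a b => s1 x (by simp [hx, a, b])⟩

theorem exists_invol_of_not_odd [Finite G] {g : G} (hg : ¬ Odd (orderOf g)) :
    ∃ j : ℕ, g ^ j ≠ 1 ∧ g ^ j * g ^ j = 1 := by
  obtain ⟨j, hj⟩ := Nat.not_odd_iff_even.1 hg
  have h0 := orderOf_pos g
  refine ⟨j, fun e => ?_, by rw [← pow_add, ← hj, pow_orderOf_eq_one]⟩
  have := Nat.le_of_dvd (by omega) (orderOf_dvd_of_pow_eq_one e)
  omega

theorem ncard_fix_le_pow [Finite Ω] (g : G) (j : ℕ) :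
    (fixedBy Ω g).ncard ≤ (fixedBy Ω (g ^ j)).ncard :=
  Set.ncard_le_ncard fun _ hx => pow_smul_of_fix hx j

theorem ncard_inter_fix_mod [Finite Ω] {t : G} (ht : t * t = 1) (X : Set Ω)
    (hX : ∀ x ∈ X, t • x ∈ X) : (X ∩ fixedBy Ω t).ncard % 2 = X.ncard % 2 := by
  let X' : SubMulAction (Subgroup.zpowers t) Ω :=
    { carrier := X
      smul_mem' := by
        rintro ⟨_, n, rfl⟩ x hx
        change t ^ n • x ∈ X
        rcases Int.even_or_odd' n with ⟨m, rfl | rfl⟩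
        · rw [zpow_mul, zpow_two, ht, one_zpow, one_smul]; exact hx
        · rw [zpow_add, zpow_mul, zpow_two, ht, one_zpow, one_mul, zpow_one]; exact hX x hx }
  have h1 := ncard_fix_mod (Ω := X') (t := (⟨t, Subgroup.mem_zpowers t⟩ : Subgroup.zpowers t))
    (Subtype.ext ht)
  have h2 : Nat.card X' = X.ncard := Nat.card_coe_set_eq X
  rw [← h2, ← h1, ← Set.ncard_image_of_injective _ Subtype.val_injective]
  congr 2
  ext x
  constructor
  · rintro ⟨a, b⟩
    exact ⟨⟨x, a⟩, Subtype.ext b, rfl⟩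
  · rintro ⟨y, hy, rfl⟩
    exact ⟨y.2, congrArg Subtype.val hy⟩

/-- In the sharply 4-transitive group of degree eleven, the lifts of `(a b)` and `(a c)` have a
common fixed point outside `{a, b, c, d}`. -/
theorem Hk.link4 [Finite G] [Finite Ω] (h : Hk G Ω 4) (hn : 8 ≤ Nat.card Ω) {a b c d : Ω}
    (hab : a ≠ b) (hac : a ≠ c) (had : a ≠ d) (hbc : b ≠ c) (hbd : b ≠ d) (hcd : c ≠ d) {g g' : G}
    (g1 : g • a = b) (g2 : g • b = a) (g3 : g • c = c) (g4 : g • d = d)
    (k1 : g' • a = c) (k2 : g' • b = b) (k3 : g' • c = a) (k4 : g' • d = d) :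
    ∃ w : Ω, w ≠ a ∧ w ≠ b ∧ w ≠ c ∧ w ≠ d ∧ g • w = w ∧ g' • w = w := by
  have eq4 : ∀ x y : G, x • a = y • a → x • b = y • b → x • c = y • c → x • d = y • d → x = y :=
    fun x y e1 e2 e3 e4 => by
      have := h.sharp hn (d := y⁻¹ * x) (four_le_ncard hab hac had hbc hbd hcd
        (by rw [mem_fixedBy, mul_smul, e1, inv_smul_smul])
        (by rw [mem_fixedBy, mul_smul, e2, inv_smul_smul])
        (by rw [mem_fixedBy, mul_smul, e3, inv_smul_smul])
        (by rw [mem_fixedBy, mul_smul, e4, inv_smul_smul]))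
      rw [inv_mul_eq_one] at this
      exact this.symm
  obtain ⟨s, s1, s2, s3, s4⟩ := mt4 h.tr hab hac had hbc hbd hcd hab.symm hbd hbc had hac hcd.symm
  obtain ⟨t, t1, t2, t3, t4⟩ := mt4 h.tr hab hac had hbc hbd hcd hcd hac.symm hbc.symm had.symm
    hbd.symm hab
  have ss : s * s = 1 := eq4 _ _ (by simp [mul_smul, *]) (by simp [mul_smul, *])
    (by simp [mul_smul, *]) (by simp [mul_smul, *])
  have tt : t * t = 1 := eq4 _ _ (by simp [mul_smul, *]) (by simp [mul_smul, *])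
    (by simp [mul_smul, *]) (by simp [mul_smul, *])
  have st : s * t = t * s := eq4 _ _ (by simp only [mul_smul, *]) (by simp only [mul_smul, *])
    (by simp only [mul_smul, *]) (by simp only [mul_smul, *])
  have gs : s * g = g * s := eq4 _ _ (by simp only [mul_smul, *]) (by simp only [mul_smul, *])
    (by simp only [mul_smul, *]) (by simp only [mul_smul, *])
  have gt : t * g = g * (s * t) := eq4 _ _ (by simp only [mul_smul, s1, s2, s3, s4, t1, t2, t3, t4, g1, g2, g3, g4])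
    (by simp only [mul_smul, s1, s2, s3, s4, t1, t2, t3, t4, g1, g2, g3, g4])
    (by simp only [mul_smul, s1, s2, s3, s4, t1, t2, t3, t4, g1, g2, g3, g4])
    (by simp only [mul_smul, s1, s2, s3, s4, t1, t2, t3, t4, g1, g2, g3, g4])
  have kt : t * g' = g' * t := eq4 _ _ (by simp only [mul_smul, t1, t2, t3, t4, k1, k2, k3, k4])
    (by simp only [mul_smul, t1, t2, t3, t4, k1, k2, k3, k4])
    (by simp only [mul_smul, t1, t2, t3, t4, k1, k2, k3, k4])
    (by simp only [mul_smul, t1, t2, t3, t4, k1, k2, k3, k4])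
  have ks : s * g' = g' * (s * t) := eq4 _ _
    (by simp only [mul_smul, s1, s2, s3, s4, t1, t2, t3, t4, k1, k2, k3, k4])
    (by simp only [mul_smul, s1, s2, s3, s4, t1, t2, t3, t4, k1, k2, k3, k4])
    (by simp only [mul_smul, s1, s2, s3, s4, t1, t2, t3, t4, k1, k2, k3, k4])
    (by simp only [mul_smul, s1, s2, s3, s4, t1, t2, t3, t4, k1, k2, k3, k4])
  have s0 : s ≠ 1 := by rintro rfl; exact hab (by simpa using s1)
  have t0 : t ≠ 1 := by rintro rfl; exact hac (by simpa using t1)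
  have st0 : s * t ≠ 1 := fun e => had (by
    have := congrArg (· • a) e
    simpa [mul_smul, t1, s3] using this.symm)
  have h11 := h.card_eq hn
  obtain ⟨w, w1, w2⟩ := exists_fix_of_odd tt (fixedBy Ω s) (fun x hx => by
    rw [mem_fixedBy] at hx ⊢
    rw [← mul_smul, st, mul_smul, hx]) (by rw [ncard_fix_mod ss, h11])
  rw [mem_fixedBy] at w1
  have uniq : ∀ y : Ω, s • y = y → t • y = y → y = w := fun y y1 y2 => by
    by_contra hne
    exact h.no_four hn ss tt st s0 t0 st0 hne y1 w1 y2 w2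
  refine ⟨w, ?_, ?_, ?_, ?_, uniq _ ?_ ?_, uniq _ ?_ ?_⟩
  · rintro rfl; exact hab (w1.symm.trans s1)
  · rintro rfl; exact hab (s2.symm.trans w1)
  · rintro rfl; exact hcd (w1.symm.trans s3)
  · rintro rfl; exact hcd (s4.symm.trans w1)
  · rw [← mul_smul, gs, mul_smul, w1]
  · rw [← mul_smul, gt, mul_smul, mul_smul, w2, w1]
  · rw [← mul_smul, ks, mul_smul, mul_smul, w2, w1]
  · rw [← mul_smul, kt, mul_smul, w2]

section large

variable [Finite G] [Finite Ω] [DecidableEq Ω] {k : ℕ} (h : Hk G Ω k) (hk : 4 ≤ k)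
  (hn : k + 4 ≤ Nat.card Ω)
include h hk hn

theorem Hk.link {Δ : Finset Ω} (hΔ : Δ.card = k) {a b c : Ω} (ha : a ∈ Δ) (hb : b ∈ Δ) (hc : c ∈ Δ)
    (hab : a ≠ b) (hac : a ≠ c) (hbc : b ≠ c) {g g' : G} (hg : Tr Δ a b g) (hg' : Tr Δ a c g') :
    ∃ w ∉ Δ, g • w = w ∧ g' • w = w := by
  obtain ⟨m, rfl⟩ : ∃ m, k = m + 4 := ⟨k - 4, by omega⟩
  obtain ⟨d, hd, hd'⟩ := Finset.exists_mem_notMem_of_card_lt_card (s := ({a, b, c} : Finset Ω))
    (t := Δ) (lt_of_le_of_lt Finset.card_le_three (by omega))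
  simp only [Finset.mem_insert, Finset.mem_singleton, not_or] at hd'
  have had : a ≠ d := Ne.symm hd'.1
  have hbd : b ≠ d := Ne.symm hd'.2.1
  have hcd : c ≠ d := Ne.symm hd'.2.2
  let s : Set Ω := (Δ : Set Ω) \ {a, b, c, d}
  have hs : s.ncard = m := by
    have h1 := Set.ncard_sdiff_add_ncard_of_subset (s := ({a, b, c, d} : Set Ω)) (t := (Δ : Set Ω))
      (by rintro x (rfl | rfl | rfl | rfl) <;> assumption)
    rw [Set.ncard_insert_of_notMem (by simp [hab, hac, had]),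
      Set.ncard_insert_of_notMem (by simp [hbc, hbd]), Set.ncard_pair hcd, Set.ncard_coe_finset,
      hΔ] at h1
    change ((Δ : Set Ω) \ {a, b, c, d}).ncard = m
    omega
  have hc' := card_sub (G := G) s
  have m1 : g ∈ fixingSubgroup G s := (mem_fixingSubgroup_iff G).2 fun x hx =>
    hg.fix x hx.1 (fun e => hx.2 (by simp [e])) (fun e => hx.2 (by simp [e]))
  have m2 : g' ∈ fixingSubgroup G s := (mem_fixingSubgroup_iff G).2 fun x hx =>
    hg'.fix x hx.1 (fun e => hx.2 (by simp [e])) (fun e => hx.2 (by simp [e]))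
  obtain ⟨w, w1, w2, w3, w4, w5, w6⟩ := (h.sub s hs).link4 (by omega)
    (a := ⟨a, fun e => e.2 (by simp)⟩) (b := ⟨b, fun e => e.2 (by simp)⟩)
    (c := ⟨c, fun e => e.2 (by simp)⟩) (d := ⟨d, fun e => e.2 (by simp)⟩)
    (fun e => hab (congrArg Subtype.val e)) (fun e => hac (congrArg Subtype.val e))
    (fun e => had (congrArg Subtype.val e)) (fun e => hbc (congrArg Subtype.val e))
    (fun e => hbd (congrArg Subtype.val e)) (fun e => hcd (congrArg Subtype.val e)) (g := ⟨g, m1⟩) (g' := ⟨g', m2⟩)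
    (Subtype.ext hg.l) (Subtype.ext hg.r) (Subtype.ext (hg.fix c hc hac.symm hbc.symm))
    (Subtype.ext (hg.fix d hd had.symm hbd.symm)) (Subtype.ext hg'.l)
    (Subtype.ext (hg'.fix b hb hab.symm hbc)) (Subtype.ext hg'.r)
    (Subtype.ext (hg'.fix d hd had.symm hcd.symm))
  refine ⟨w, fun hw => w.2 ⟨hw, ?_⟩, congrArg Subtype.val w5, congrArg Subtype.val w6⟩
  rintro (e | e | e | e)
  exacts [w1 (Subtype.ext e), w2 (Subtype.ext e), w3 (Subtype.ext e), w4 (Subtype.ext e)]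

theorem Hk.tr_uniq {Δ : Finset Ω} (hΔ : Δ.card = k) {u v : Ω} (hu : u ∈ Δ) (hv : v ∈ Δ)
    (huv : u ≠ v) {g : G} (hg : Tr Δ u v g) {w w' : Ω} (hw : w ∉ Δ) (hw' : w' ∉ Δ)
    (e : g • w = w) (e' : g • w' = w') : w = w' := by
  by_contra hne
  have hv' : v ∈ Δ.erase u := Finset.mem_erase.2 ⟨huv.symm, hv⟩
  have a1 := Finset.card_erase_add_one hu
  have a2 := Finset.card_erase_add_one hv'
  have := card_le_ncard (s := insert w (insert w' ((Δ.erase u).erase v))) (S := fixedBy Ω g) (by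
    intro x hx
    simp only [Finset.mem_insert, Finset.mem_erase] at hx
    rcases hx with rfl | rfl | hx
    exacts [e, e', hg.fix x hx.2.2 hx.2.1 hx.1])
  rw [Finset.card_insert_of_notMem (by simp [hne, hw]),
    Finset.card_insert_of_notMem (by simp [hw'])] at this
  have h1 := h.sharpk hk hn (d := g) (by omega)
  exact huv (by simpa [h1] using hg.l)

theorem Hk.exists_extra {Δ : Finset Ω} (hΔ : Δ.card = k) :
    ∃ w ∉ Δ, ∀ u ∈ Δ, ∀ v ∈ Δ, u ≠ v → ∀ g : G, Tr Δ u v g → g • w = w := by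
  obtain ⟨a, b, c, ha, hb, hc, hab, hac, hbc⟩ := (Finset.two_lt_card_iff (s := Δ)).1 (by omega)
  obtain ⟨g0, hg0⟩ := exists_tr h.tr hΔ ha hb
  obtain ⟨g1, hg1⟩ := exists_tr h.tr hΔ ha hc
  obtain ⟨w, hw, w1, -⟩ := h.link hk hn hΔ ha hb hc hab hac hbc hg0 hg1
  have same : ∀ u ∈ Δ, ∀ v ∈ Δ, ∀ g g' : G, Tr Δ u v g → Tr Δ u v g' → g = g' :=
    fun u hu v hv g g' k1 k2 => by
      have := h.sharpk hk hn (d := g'⁻¹ * g) (hΔ ▸ card_le_ncard fun x hx => by
        rw [mem_fixedBy, mul_smul, inv_smul_eq_iff]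
        by_cases e1 : x = u
        · rw [e1, k1.l, k2.l]
        by_cases e2 : x = v
        · rw [e2, k1.r, k2.r]
        rw [k1.fix x hx e1 e2, k2.fix x hx e1 e2])
      rw [inv_mul_eq_one] at this
      exact this.symm
  have step : ∀ x ∈ Δ, ∀ y ∈ Δ, ∀ z ∈ Δ, x ≠ y → x ≠ z → (∀ g : G, Tr Δ x y g → g • w = w) →
      ∀ g : G, Tr Δ x z g → g • w = w := fun x hx y hy z hz hxy hxz H g hg => by
    by_cases e : y = z
    · exact H g (e ▸ hg)
    obtain ⟨g', hg'⟩ := exists_tr h.tr hΔ hx hy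
    obtain ⟨w', hw', e1, e2⟩ := h.link hk hn hΔ hx hy hz hxy hxz e hg' hg
    rwa [h.tr_uniq hk hn hΔ hx hy hxy hg' hw hw' (H g' hg') e1]
  have base : ∀ g : G, Tr Δ a b g → g • w = w := fun g hg => by rw [same a ha b hb g g0 hg hg0, w1]
  refine ⟨w, hw, fun u hu v hv huv => ?_⟩
  by_cases e : a = u
  · subst e
    exact step a ha b hb v hv hab huv base
  · exact step u hu a ha v hv (Ne.symm e) huv fun g hg => step a ha b hb u hu hab e base g hg.symm

theorem Hk.exists_ind_top : ∃ Δ : Finset Ω, Δ.card = k + 1 ∧ Ind G Δ = ⊤ := by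
  obtain ⟨Δ, hΔ, -⟩ := exists_finset_sub (S := (Set.univ : Set Ω)) (k := k)
    (by rw [Set.ncard_univ]; omega)
  obtain ⟨w, hw, H⟩ := h.exists_extra hk hn hΔ
  have key : ∀ u ∈ Δ, ∃ g : G, Tr (insert w Δ) u w g := fun u hu => by
    obtain ⟨z, hz, hz'⟩ := Finset.exists_mem_notMem_of_card_lt_card (s := ({u} : Finset Ω))
      (t := Δ) (by simp; omega)
    have hzu : z ≠ u := by simpa using hz'
    have a1 := Finset.card_erase_add_one hz
    have hw1 : w ∉ Δ.erase z := fun e => hw (Finset.mem_of_mem_erase e)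
    have hΔ1 : (insert w (Δ.erase z)).card = k := by rw [Finset.card_insert_of_notMem hw1]; omega
    obtain ⟨w1, hw1', H1⟩ := h.exists_extra hk hn hΔ1
    obtain ⟨x, hx, y, hy, hxy⟩ := (Finset.one_lt_card (s := Δ.erase z)).1 (by omega)
    have hx' := Finset.mem_erase.1 hx
    have hy' := Finset.mem_erase.1 hy
    obtain ⟨g, hg⟩ := exists_tr h.tr hΔ hx'.2 hy'.2
    have hg1 : Tr (insert w (Δ.erase z)) x y g := ⟨hg.l, hg.r, fun p hp p1 p2 => by
      rcases Finset.mem_insert.1 hp with rfl | hp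
      · exact H x hx'.2 y hy'.2 hxy g hg
      · exact hg.fix p (Finset.mem_of_mem_erase hp) p1 p2⟩
    have hzw : z ≠ w := fun e => hw (e ▸ hz)
    have e := h.tr_uniq hk hn hΔ1 (Finset.mem_insert_of_mem hx) (Finset.mem_insert_of_mem hy) hxy
      hg1 hw1' (show z ∉ _ by simp [hzw])
      (H1 x (Finset.mem_insert_of_mem hx) y (Finset.mem_insert_of_mem hy) hxy g hg1)
      (hg.fix z hz hx'.1.symm hy'.1.symm)
    have hu1 : u ∈ insert w (Δ.erase z) :=
      Finset.mem_insert_of_mem (Finset.mem_erase.2 ⟨hzu.symm, hu⟩)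
    obtain ⟨g1, hg2⟩ := exists_tr h.tr hΔ1 hu1 (Finset.mem_insert_self _ _)
    refine ⟨g1, hg2.l, hg2.r, fun p hp p1 p2 => ?_⟩
    by_cases e2 : p = z
    · rw [e2, ← e]
      exact H1 u hu1 w (Finset.mem_insert_self _ _) (fun e => hw (e ▸ hu)) g1 hg2
    · refine hg2.fix p ?_ p1 p2
      exact Finset.mem_insert_of_mem
        (Finset.mem_erase.2 ⟨e2, (Finset.mem_insert.1 hp).resolve_left p2⟩)
  refine ⟨insert w Δ, by rw [Finset.card_insert_of_notMem hw, hΔ],
    ind_top_of_tr fun u hu v hv huv => ?_⟩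
  rcases Finset.mem_insert.1 hu with rfl | hu1
  · obtain ⟨g, hg⟩ := key v ((Finset.mem_insert.1 hv).resolve_left huv.symm)
    exact ⟨g, hg.symm⟩
  rcases Finset.mem_insert.1 hv with rfl | hv1
  · exact key u hu1
  obtain ⟨g, hg⟩ := exists_tr h.tr hΔ hu1 hv1
  refine ⟨g, hg.l, hg.r, fun p hp p1 p2 => ?_⟩
  rcases Finset.mem_insert.1 hp with rfl | hp1
  · exact H u hu1 v hv1 huv g hg
  · exact hg.fix p hp1 p1 p2

end large

end Cfsg.Agent.LW
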