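import Cfsg.Agent.LW.Small
import Cfsg.Agent.S0736

/-! The theorems of Livingstone and Wagner on multiply homogeneous groups. -/

set_option autoImplicit false

namespace Cfsg.Agent.LW

open MulAction Cfsg.Agent.H26 Equiv
open scoped Pointwise

theorem arith2' : ∀ a < 7, ∀ r < 13, (a ∣ 6 ∧ a ≠ 6 ∧ 2 ≤ r ∧ 2 * r ∣ a * 4 ∧
    (r + 1) * a % 12 = 6) → a = 2 ∧ r = 2 := by decide

theorem arith2 (a : ℕ) (ha : a ≤ 6) (r : ℕ) (hr : r ≤ 12) (h1 : a ∣ 6) (h2 : a ≠ 6) (h3 : 2 ≤ r)
    (h4 : 2 * r ∣ a * 4) (h5 : (r + 1) * a % 12 = 6) : a = 2 ∧ r = 2 :=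
  arith2' a (by omega) r (by omega) ⟨h1, h2, h3, h4, h5⟩

theorem arith3' : ∀ a < 25, ∀ r < 61, (decide (a ∣ 24) && decide (a ≠ 24) && decide (2 ≤ r) &&
    decide (2 * r ∣ a * 5) && decide ((r + 1) * a % 48 = 24)) = true →
    100 * a + r = 1205 ∨ 100 * a + r = 802 ∨ 100 * a + r = 405 ∨ 100 * a + r = 603 ∨
      100 * a + r = 820 := by
  decide +kernel

theorem arith3 (a : ℕ) (ha : a ≤ 24) (r : ℕ) (hr : r ≤ 60) (h1 : a ∣ 24) (h2 : a ≠ 24) (h3 : 2 ≤ r)
    (h4 : 2 * r ∣ a * 5) (h5 : (r + 1) * a % 48 = 24) :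
    (a = 12 ∧ r = 5) ∨ (a = 8 ∧ r = 2) ∨ (a = 4 ∧ r = 5) ∨ (a = 6 ∧ r = 3) ∨ (a = 8 ∧ r = 20) := by
  have := arith3' a (by omega) r (by omega) (by simp [h1, h2, h3, h4, h5])
  omega

variable {α : Type*} [Fintype α] [DecidableEq α]

omit [Fintype α] in
theorem card_fix_eq {G : Subgroup (Perm α)} {m : ℕ}
    (hh : IsPretransitive G (Set.powersetCard α m)) {s t : Finset α} (hs : s.card = m)
    (ht : t.card = m) :
    Nat.card (fixingSubgroup G (t : Set α)) = Nat.card (fixingSubgroup G (s : Set α)) := by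
  obtain ⟨g, rfl⟩ := homog_iff.1 hh s t hs ht
  exact (Nat.card_congr (SubMulAction.fixingSubgroupEquivFixingSubgroup
    (s := ((g • s : Finset α) : Set α)) (t := (s : Set α)) (g := g)
    (Finset.coe_smul_finset g s).symm).toEquiv).symm

theorem lw_main (G : Subgroup (Perm α)) {j : ℕ} (hj : 1 ≤ j) (hn : j + 3 ≤ Fintype.card α)
    (ht : IsMultiplyPretransitive G α j) (hnt : ¬ IsMultiplyPretransitive G α (j + 1))
    (hh1 : IsPretransitive G (Set.powersetCard α (j + 1)))
    (hh : IsPretransitive G (Set.powersetCard α (j + 2))) :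
    (Fintype.card α = 5 ∧ j = 2 ∧ Nat.card G = 20) ∨
      (Fintype.card α = 6 ∧ j = 3 ∧ Nat.card G = 120) ∨
      (Fintype.card α = 9 ∧ j = 3 ∧ (Nat.card G = 504 ∨ Nat.card G = 1512)) := by
  have hc := Nat.card_eq_fintype_card (α := α)
  have ex : ∀ m ≤ j + 3, ∃ s : Finset α, s.card = m := fun m hm => by
    obtain ⟨s, hs, -⟩ := exists_finset_sub (S := (Set.univ : Set α)) (k := m)
      (by rw [Set.ncard_univ]; omega)
    exact ⟨s, hs⟩
  obtain ⟨s0, hs0⟩ := ex j (by omega)
  obtain ⟨s1, hs1⟩ := ex (j + 1) (by omega)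
  obtain ⟨s2, hs2⟩ := ex (j + 2) (by omega)
  have h1 : ∀ g : G, j + 1 ≤ (fixedBy α g).ncard → g = 1 := fun g hg => by
    obtain ⟨s, hs, hs'⟩ := exists_finset_sub hg
    by_contra g1
    refine hnt (S0744.general (by omega) (by omega) _ _ ?_ (fun t ht => card_fix_eq hh1 hs ht)
      (fun t ht => card_fix_eq hh hs2 ht))
    rw [Finite.one_lt_card_iff_nontrivial]
    exact ⟨⟨⟨g, (mem_fixingSubgroup_iff G).2 hs'⟩, 1, fun e => g1 (congrArg Subtype.val e)⟩⟩
  have hne : ∀ Δ : Finset α, Δ.card = j + 1 → Ind G Δ ≠ ⊤ := fun Δ hΔ e =>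
    hnt (mt_of_ind_top hh1 hΔ e)
  have h : Hk G α j := ⟨fun g hg => Subtype.ext (Equiv.ext hg), ht, fun g hg => by
    by_contra ho
    obtain ⟨i, i1, i2⟩ := exists_invol_of_not_odd ho
    exact hne s1 hs1 (ind_top_of_invol
      (Set.powersetCard.isPretransitive_of_isMultiplyPretransitive G ht) h1 i1 i2
      (hg.trans (ncard_fix_le_pow g i)) hs1)⟩
  have hd : Odd (Nat.card (fixingSubgroup G (s0 : Set α))) := odd_card_of_forall fun g hg =>
    h.odd g (hs0 ▸ card_le_ncard ((mem_fixingSubgroup_iff G).1 hg))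
  have e0 := (fixingSubgroup G (s0 : Set α)).index_mul_card
  rw [IsMultiplyPretransitive.index_of_fixingSubgroup_eq _ (by
    rw [Set.ncard_coe_finset, hs0]; exact ht), Set.ncard_coe_finset, hs0] at e0
  obtain ⟨r, hr⟩ : ∃ r, Nat.card α = j + 1 + r := ⟨Nat.card α - (j + 1), by omega⟩
  have c1 : (Nat.card α).choose (j + 1) * (j + 1) = (Nat.card α).choose j * (r + 1) := by
    rw [Nat.choose_succ_right_eq]; congr 1; omega
  have c2 : (Nat.card α).choose (j + 2) * (j + 2) = (Nat.card α).choose (j + 1) * r := by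
    rw [Nat.choose_succ_right_eq]; congr 1; omega
  have p0 : 0 < (Nat.card α).choose j := Nat.choose_pos (by omega)
  have p2 : 0 < (Nat.card α).choose (j + 2) := Nat.choose_pos (by omega)
  have A : ∀ Δ : Finset α, Δ.card = j + 1 → (r + 1) * Nat.card (Ind G Δ) =
      Nat.card (fixingSubgroup G (s0 : Set α)) * (j + 1).factorial := fun Δ hΔ => by
    have e1 := card_eq_choose_mul hh1 h1 hΔ
    refine Nat.eq_of_mul_eq_mul_left p0 ?_
    rw [← mul_assoc, ← c1, mul_right_comm, ← e1, ← e0, Nat.factorial_succ]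
    ring
  have B : ∀ Δ : Finset α, Δ.card = j + 2 → Nat.card (Ind G Δ) * r =
      Nat.card (Ind G s1) * (j + 2) := fun Δ hΔ => by
    have e1 := card_eq_choose_mul hh1 h1 hs1
    have e2 := card_eq_choose_mul hh (fun g hg => h1 g (by omega)) hΔ
    have p1 : 0 < (Nat.card α).choose (j + 1) := Nat.choose_pos (by omega)
    refine Nat.eq_of_mul_eq_mul_left p1 ?_
    rw [mul_left_comm, ← c2, ← mul_assoc, mul_comm (Nat.card _), ← e2, ← mul_assoc, ← e1]
  have cp : ∀ Δ : Finset α, Nat.card (Perm Δ) = Δ.card.factorial := fun Δ => by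
    rw [Nat.card_perm, Nat.card_eq_fintype_card, Fintype.card_coe]
  have a1 : Nat.card (Ind G s1) ∣ (j + 1).factorial := by
    rw [← hs1, ← cp]; exact Subgroup.card_subgroup_dvd_card _
  have a2 : Nat.card (Ind G s1) ≠ (j + 1).factorial := fun e =>
    hne s1 hs1 (Subgroup.eq_top_of_card_eq _ (by rw [cp, hs1, e]))
  have A1 := A s1 hs1
  have N1 := card_eq_choose_mul hh1 h1 hs1
  rw [Nat.odd_iff] at hd
  rcases Nat.lt_or_ge j 4 with h4 | h4
  · have ale := Nat.le_of_dvd (Nat.factorial_pos _) a1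
    rcases (show j = 1 ∨ 2 ≤ j by omega) with rfl | h2
    · exfalso
      have B1 := B s2 hs2
      have : Nat.card (Ind G s1) = 1 := by
        have : 0 < Nat.card (Ind G s1) := Nat.card_pos
        simp only [Nat.reduceAdd, Nat.factorial_two] at ale a2
        omega
      rw [this] at A1 B1
      have h3 : r ∣ 3 := ⟨Nat.card (Ind G s2), by rw [mul_comm, B1]⟩
      have := Nat.le_of_dvd (by norm_num) h3
      simp only [Nat.reduceAdd, Nat.factorial_two] at A1
      omega
    obtain ⟨Δ, hΔ, b, hb⟩ := h.exists_even h2 (by omega)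
    have B1 := B Δ hΔ
    have B2 : 2 * r ∣ Nat.card (Ind G s1) * (j + 2) := ⟨b, by rw [← B1, hb]; ring⟩
    have B3 := Nat.le_of_dvd (Nat.mul_pos Nat.card_pos (by omega)) B2
    rcases (show j = 2 ∨ j = 3 by omega) with rfl | rfl
    · rw [show Nat.factorial (2 + 1) = 6 from rfl] at a1 a2 ale A1
      obtain ⟨k1, k2⟩ := arith2 _ ale r (by omega) a1 a2 (by omega) B2 (by omega)
      rw [k1, hr, k2] at N1
      exact Or.inl ⟨by omega, rfl, N1⟩
    · rw [show Nat.factorial (3 + 1) = 24 from rfl] at a1 a2 ale A1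
      have hle : Nat.card (Ind G s1) ≤ 12 := by
        obtain ⟨c, hc⟩ := a1
        have : c ≠ 1 := by rintro rfl; omega
        have : c ≠ 0 := by rintro rfl; omega
        nlinarith [show 2 ≤ c by omega]
      rcases arith3 _ ale r (by omega) a1 a2 (by omega) B2 (by omega) with
        ⟨k1, k2⟩ | ⟨k1, k2⟩ | ⟨k1, k2⟩ | ⟨k1, k2⟩ | ⟨k1, k2⟩
      · rw [k1, hr, k2] at N1
        exact Or.inr (Or.inr ⟨by omega, rfl, Or.inr N1⟩)
      · rw [k1, hr, k2] at N1
        exact Or.inr (Or.inl ⟨by omega, rfl, N1⟩)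
      · rw [k1, hr, k2] at N1
        exact Or.inr (Or.inr ⟨by omega, rfl, Or.inl N1⟩)
      · exfalso
        rw [k1, k2] at A1
        have h5 : fixingSubgroup G (s0 : Set α) = ⊥ := Subgroup.card_eq_one.1 (by omega)
        refine no_seven G (by omega) ht fun g hg => ?_
        obtain ⟨u, hu⟩ := exists_conj_fix
          (Set.powersetCard.isPretransitive_of_isMultiplyPretransitive G ht) hg hs0
        have := (mem_fixingSubgroup_iff G).2 hu
        rw [h5, Subgroup.mem_bot] at this
        simpa using this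
      · exfalso
        rw [k1, hr, k2] at N1
        exact no_twentyfour (by omega) ht N1 h1
  · exfalso
    obtain ⟨Δ, hΔ, hA⟩ := exists_alt G h4 (by omega) ht
    have A2 := A Δ hΔ
    have : Nontrivial Δ := by
      rw [← Fintype.one_lt_card_iff_nontrivial, Fintype.card_coe]; omega
    rw [(alt_or_top hA).resolve_right (hne Δ hΔ), ← hΔ, ← cp, ← two_mul_nat_card_alternatingGroup,
      ← mul_assoc] at A2
    have A3 := Nat.eq_of_mul_eq_mul_right Nat.card_pos A2
    rcases Nat.lt_or_ge (Nat.card α) (j + 4) with h5 | h5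
    · omega
    · have := h.degree h4 h5
      omega

theorem lw_one (G : Subgroup (Perm α)) (k : ℕ) (hkn : 2 * (k + 1) ≤ Fintype.card α)
    (hh : IsPretransitive G (Set.powersetCard α (k + 1))) : IsMultiplyPretransitive G α k := by
  induction k with
  | zero => exact is_zero_pretransitive'
  | succ k ih =>
    have hh1 : IsPretransitive G (Set.powersetCard α (k + 1)) :=
      S0736.general hh (by omega) fun q _ hq => by
        have := Nat.le_of_dvd (by omega) hq
        omega
    rcases Nat.eq_zero_or_pos k with rfl | hk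
    · refine mt_of_homog_of_full hh1 {Classical.choice (Fintype.card_pos_iff.1 (by omega))} rfl
        fun f _ hf => ⟨1, fun x hx => ?_⟩
      have := hf hx
      simp only [Finset.coe_singleton, Set.mem_singleton_iff, Finset.mem_singleton] at this hx
      rw [one_smul, this, hx]
    by_contra hnt
    have := lw_main G hk (by omega) (ih (by omega) hh1) hnt hh1 hh
    omega

theorem lw_two (G : Subgroup (Perm α)) (k : ℕ) (hk : 4 ≤ k) (hkn : 2 * (k + 1) ≤ Fintype.card α)
    (hh : IsPretransitive G (Set.powersetCard α (k + 1))) :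
    IsMultiplyPretransitive G α (k + 1) := by
  have hc := Nat.card_eq_fintype_card (α := α)
  have ht := lw_one G k hkn hh
  obtain ⟨Δ, hΔ, hA⟩ := exists_alt G hk (by omega) ht
  by_contra hnt
  have hA' := (alt_or_top hA).resolve_right fun e => hnt (mt_of_ind_top hh hΔ e)
  obtain ⟨j, rfl⟩ : ∃ j, k = j + 1 := ⟨k - 1, by omega⟩
  have ho : ∀ g : G, j ≤ (fixedBy α g).ncard → Odd (orderOf g) := fun g hg => by
    by_contra ho
    obtain ⟨i, i1, i2⟩ := exists_invol_of_not_odd ho
    obtain ⟨s, hs, hs'⟩ := exists_finset_sub (hg.trans (ncard_fix_le_pow g i))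
    obtain ⟨x, hx⟩ : ∃ x : α, g ^ i • x ≠ x := by
      by_contra! hc
      exact i1 (Subtype.ext (Equiv.ext hc))
    have tt : g ^ i • g ^ i • x = x := by rw [← mul_smul, i2, one_smul]
    have x1 : x ∉ s := fun e => hx (hs' x e)
    have x2 : g ^ i • x ∉ s := fun e => hx (MulAction.injective (g ^ i) (hs' _ e))
    obtain ⟨u, hu⟩ := homog_iff.1 hh (insert x (insert (g ^ i • x) s)) Δ (by
      rw [Finset.card_insert_of_notMem (by simp [hx.symm, x1]), Finset.card_insert_of_notMem x2,
        hs]) hΔ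
    have m1 : u • x ∈ Δ := hu ▸ Finset.smul_mem_smul_finset (by simp)
    have m2 : u • g ^ i • x ∈ Δ := hu ▸ Finset.smul_mem_smul_finset (by simp)
    have hT : Tr Δ (⟨_, m1⟩ : Δ) (⟨_, m2⟩ : Δ) (u * g ^ i * u⁻¹) :=
      ⟨by rw [mul_smul, mul_smul, inv_smul_smul], by rw [mul_smul, mul_smul, inv_smul_smul, tt],
        fun y hy y1 y2 => by
          rw [← hu] at hy
          obtain ⟨z, hz, rfl⟩ := Finset.mem_smul_finset.1 hy
          simp only [Finset.mem_insert] at hz
          rcases hz with rfl | rfl | hz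
          · exact absurd rfl y1
          · exact absurd rfl y2
          · rw [mul_smul, mul_smul, inv_smul_smul, hs' z hz]⟩
    have := hT.swap_mem
    rw [hA', Perm.mem_alternatingGroup, Perm.sign_swap
      (fun e => hx (MulAction.injective u (congrArg Subtype.val e)).symm)] at this
    exact absurd this (by decide)
  have h : Hk G α (j + 1) :=
    ⟨fun g hg => Subtype.ext (Equiv.ext hg), ht, fun g hg => ho g (by omega)⟩
  have hdeg := h.degree hk (by omega)
  obtain ⟨s, hs, -⟩ := exists_finset_sub (S := (Set.univ : Set α)) (k := j)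
    (by rw [Set.ncard_univ]; omega)
  have hodd := odd_card_of_forall (H := fixingSubgroup G (s : Set α)) fun g hg =>
    ho g (hs ▸ card_le_ncard ((mem_fixingSubgroup_iff G).1 hg))
  have htr : IsPretransitive (fixingSubgroup G (s : Set α))
      (SubMulAction.ofFixingSubgroup G (s : Set α)) := is_one_pretransitive_iff.1
    (SubMulAction.ofFixingSubgroup.isMultiplyPretransitive G (n := j + 1) _
      (by rw [Set.ncard_coe_finset, hs]))
  have h8 := card_sub (G := G) (s : Set α)
  rw [Set.ncard_coe_finset, hs] at h8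
  obtain ⟨⟨x⟩, -⟩ := (Nat.card_pos_iff (α := SubMulAction.ofFixingSubgroup G (s : Set α))).1
    (by omega)
  have h9 := (stabilizer (fixingSubgroup G (s : Set α)) x).index_dvd_card
  rw [index_stabilizer_of_transitive] at h9
  have := hodd.of_dvd_nat h9
  rw [Nat.odd_iff] at this
  omega

end Cfsg.Agent.LW
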