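import Cfsg.Agent.LW.Alt
import Cfsg.Agent.S0744

/-! Livingstone and Wagner: orders of induced groups, and two impossible configurations. -/

set_option autoImplicit false

namespace Cfsg.Agent.LW

open MulAction Cfsg.Agent.H26 Equiv
open scoped Pointwise

variable {G Ω : Type*} [Group G] [MulAction G Ω]

theorem exists_ind {Δ : Finset Ω} {g : G} (h : ∀ x ∈ Δ, g • x ∈ Δ) :
    ∃ σ ∈ Ind G Δ, ∀ x : Δ, g • (x : Ω) = σ x := by
  let f : Δ → Δ := fun x => ⟨g • (x : Ω), h x x.2⟩
  have hf : Function.Injective f := fun x y e =>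
    Subtype.ext (MulAction.injective g (congrArg Subtype.val e))
  exact ⟨Equiv.ofBijective f (Finite.injective_iff_bijective.1 hf), ⟨g, fun _ => rfl⟩, fun _ => rfl⟩

theorem card_eq_choose_mul [Finite Ω] [DecidableEq Ω] {m : ℕ}
    (hh : IsPretransitive G (Set.powersetCard Ω m))
    (h1 : ∀ g : G, m ≤ (fixedBy Ω g).ncard → g = 1) {Δ : Finset Ω} (hΔ : Δ.card = m) :
    Nat.card G = (Nat.card Ω).choose m * Nat.card (Ind G Δ) := by
  let D : Set.powersetCard Ω m := ⟨Δ, hΔ⟩
  rw [← (stabilizer G D).index_mul_card, index_stabilizer_of_transitive, Set.powersetCard.card]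
  congr 1
  symm
  refine Nat.card_congr (Equiv.ofBijective (fun σ => ⟨σ.2.choose, ?_⟩) ⟨?_, ?_⟩)
  · rw [mem_stabilizer_iff]
    refine Subtype.ext (Finset.eq_of_subset_of_card_le ?_ ?_)
    · intro x hx
      obtain ⟨y, hy, rfl⟩ := Finset.mem_smul_finset.1 hx
      rw [σ.2.choose_spec ⟨y, hy⟩]
      exact (σ.1 ⟨y, hy⟩).2
    · exact (Finset.card_smul_finset _ Δ).ge
  · intro σ τ e
    have e' : σ.2.choose = τ.2.choose := congrArg Subtype.val e
    refine Subtype.ext (Equiv.ext fun x => Subtype.ext ?_)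
    rw [← σ.2.choose_spec x, ← τ.2.choose_spec x, e']
  · rintro ⟨g, hg⟩
    have hg' : g • Δ = Δ := congrArg Subtype.val (mem_stabilizer_iff.1 hg)
    obtain ⟨σ, hσ, e⟩ := exists_ind (Δ := Δ) (g := g) fun x hx =>
      hg' ▸ Finset.smul_mem_smul_finset hx
    refine ⟨⟨σ, hσ⟩, Subtype.ext ?_⟩
    have := h1 (g⁻¹ * hσ.choose) (hΔ ▸ card_le_ncard fun x hx => by
      rw [mem_fixedBy, mul_smul, hσ.choose_spec ⟨x, hx⟩, ← e, inv_smul_smul])
    rw [inv_mul_eq_one] at this
    exact this.symm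

theorem Hk.exists_even [Finite G] [Finite Ω] [DecidableEq Ω] {j : ℕ} (h : Hk G Ω j) (hj : 2 ≤ j)
    (hn : j + 2 ≤ Nat.card Ω) : ∃ Δ : Finset Ω, Δ.card = j + 2 ∧ 2 ∣ Nat.card (Ind G Δ) := by
  obtain ⟨s, hs, -⟩ := exists_finset_sub (S := (Set.univ : Set Ω)) (k := j)
    (by rw [Set.ncard_univ]; omega)
  obtain ⟨x, hx, y, hy, hxy⟩ := (Finset.one_lt_card (s := s)).1 (by omega)
  obtain ⟨g, hg⟩ := exists_tr h.tr hs hx hy
  have hgg : ∀ z ∈ s, g • g • z = z ∧ g • z ∈ s := fun z hz => by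
    by_cases e1 : z = x
    · rw [e1, hg.l, hg.r]; exact ⟨rfl, hy⟩
    by_cases e2 : z = y
    · rw [e2, hg.r, hg.l]; exact ⟨rfl, hx⟩
    rw [hg.fix z hz e1 e2, hg.fix z hz e1 e2]; exact ⟨rfl, hz⟩
  obtain ⟨t, ht, ht'⟩ := h.invol g (hs ▸ card_le_ncard fun z hz => by
    rw [mem_fixedBy, mul_smul, (hgg z hz).1])
  have tt : ∀ w : Ω, t • t • w = w := fun w => by rw [← mul_smul, ht, one_smul]
  have ts : ∀ z ∈ s, t • z ∈ s := fun z hz => by rw [ht' z (hgg z hz).1]; exact (hgg z hz).2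
  obtain ⟨u, v, hu, hv, huv, tu, tv⟩ : ∃ u v, u ∉ s ∧ v ∉ s ∧ u ≠ v ∧ (t • u = u ∨ t • u = v) ∧
      (t • v = u ∨ t • v = v) := by
    by_cases hc : ∃ u ∉ s, t • u ≠ u
    · obtain ⟨u, hu, e⟩ := hc
      exact ⟨u, t • u, hu, fun hm => hu (tt u ▸ ts _ hm), e.symm, Or.inr rfl, Or.inl (tt u)⟩
    · push Not at hc
      have a1 := Set.ncard_add_ncard_compl (s : Set Ω)
      rw [Set.ncard_coe_finset, hs] at a1
      obtain ⟨u, hu, v, hv, huv⟩ := (Set.one_lt_ncard (s := (s : Set Ω)ᶜ)).1 (by omega)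
      exact ⟨u, v, hu, hv, huv, Or.inl (hc u hu), Or.inr (hc v hv)⟩
  refine ⟨insert u (insert v s), by
    rw [Finset.card_insert_of_notMem (by simp [huv, hu]), Finset.card_insert_of_notMem hv, hs], ?_⟩
  obtain ⟨σ, hσ, e⟩ := exists_ind (Δ := insert u (insert v s)) (g := t) (by
    intro z hz
    simp only [Finset.mem_insert] at hz ⊢
    rcases hz with rfl | rfl | hz
    · tauto
    · tauto
    · exact Or.inr (Or.inr (ts z hz)))
  have ho : orderOf σ = 2 := by
    refine orderOf_eq_prime (Equiv.ext fun z => Subtype.ext ?_) fun e1 => hxy ?_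
    · rw [sq, Perm.mul_apply, ← e, ← e, tt]; rfl
    · have := e ⟨x, by simp [hx]⟩
      rw [e1, ht' x (hgg x hx).1, hg.l] at this
      exact this.symm
  rw [← ho]
  exact Subgroup.orderOf_dvd_natCard _ hσ

/-- There is no sharply 3-transitive group of degree seven. -/
theorem no_seven {α : Type*} [Fintype α] [DecidableEq α] (G : Subgroup (Perm α))
    (hn : Nat.card α = 7) (hG : IsMultiplyPretransitive G α 3)
    (h1 : ∀ g : G, 3 ≤ (fixedBy α g).ncard → g = 1) : False := by
  have three : ∀ (g : G) (a b c : α), a ≠ b → a ≠ c → b ≠ c → g • a = a → g • b = b → g • c = c →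
      g = 1 := fun g a b c hab hac hbc ha hb hc => h1 g
        ((Set.two_lt_ncard_iff (s := fixedBy α g)).2 ⟨a, b, c, ha, hb, hc, hab, hac, hbc⟩)
  have fix1 : ∀ t : G, t * t = 1 → t ≠ 1 → (fixedBy α t).ncard = 1 := fun t ht t1 => by
    have a1 := ncard_fix_mod (Ω := α) ht
    have a2 : ¬ 3 ≤ (fixedBy α t).ncard := fun e => t1 (h1 t e)
    omega
  have sw : ∀ o x y : α, o ≠ x → o ≠ y → x ≠ y →
      ∃ g : G, g • o = o ∧ g • x = y ∧ g • y = x ∧ Perm.sign (g : Perm α) = -1 := by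
    intro o x y hx hy hxy
    obtain ⟨g, g1, g2, g3⟩ := mt3 hG hx hy hxy hy hx hxy.symm
    have gg : g * g = 1 := three _ o x y hx hy hxy (by rw [mul_smul, g1, g1])
      (by rw [mul_smul, g2, g3]) (by rw [mul_smul, g3, g2])
    have e := fix1 g gg (by rintro rfl; exact hxy (by simpa using g2))
    refine ⟨g, g1, g2, g3, ?_⟩
    rw [Perm.sign_of_pow_two_eq_one (by rw [sq]; exact congrArg Subtype.val gg),
      ← Nat.card_eq_fintype_card, ← Nat.card_eq_fintype_card, hn, Nat.card_coe_set_eq]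
    change (-1) ^ ((7 - (fixedBy α g).ncard) / 2) = _
    rw [e]; rfl
  obtain ⟨s, hs, -⟩ := exists_finset_sub (S := (Set.univ : Set α)) (k := 4)
    (by rw [Set.ncard_univ]; omega)
  obtain ⟨o, x, y, w, hox, hoy, how, hxy, hxw, hyw, -⟩ := Finset.card_eq_four.1 hs
  obtain ⟨a, a1, -, a3, a4⟩ := sw o x y hox hoy hxy
  obtain ⟨b, b1, -, b3, b4⟩ := sw o y w hoy how hyw
  obtain ⟨c, c1, c2, -, c4⟩ := sw o x w hox how hxw
  have e1 : (c * a * b) • o = o := by rw [mul_smul, mul_smul, b1, a1, c1]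
  have e2 : (c * a * b) • w = w := by rw [mul_smul, mul_smul, b3, a3, c2]
  by_cases ho : Odd (orderOf (c * a * b))
  · have := congrArg (fun g : G => Perm.sign (g : Perm α)) (pow_orderOf_eq_one (c * a * b))
    simp only [Subgroup.coe_pow, Subgroup.coe_mul, map_pow, map_mul, a4, b4, c4, mul_neg, neg_neg,
      mul_one, ho.neg_one_pow, Subgroup.coe_one, map_one] at this
    exact absurd this (by decide)
  · obtain ⟨i, i1, i2⟩ := exists_invol_of_not_odd ho
    have := (Set.one_lt_ncard (s := fixedBy α ((c * a * b) ^ i))).2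
      ⟨o, pow_smul_of_fix e1 i, w, pow_smul_of_fix e2 i, how⟩
    have := fix1 _ i2 i1
    omega

/-- There is no 3-transitive group of degree 24 and order `24 * 23 * 22 * 7` in which only the
identity fixes four points. -/
theorem no_twentyfour [Finite G] [Finite Ω] (hn : Nat.card Ω = 24)
    (hG : IsMultiplyPretransitive G Ω 3) (hN : Nat.card G = 85008)
    (h1 : ∀ g : G, 4 ≤ (fixedBy Ω g).ncard → g = 1) : False := by
  obtain ⟨p, q, o, -, -, -, hpq, hpo, hqo⟩ := (Set.two_lt_ncard_iff (s := (Set.univ : Set Ω))).1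
    (by rw [Set.ncard_univ]; omega)
  have c2 : ({p, q} : Set Ω).ncard = 2 := Set.ncard_pair hpq
  have c3 : ({o, p, q} : Set Ω).ncard = 3 := by
    rw [Set.ncard_insert_of_notMem (by simp [hpo.symm, hqo.symm]), c2]
  have i2 := IsMultiplyPretransitive.index_of_fixingSubgroup_eq (G := G) ({p, q} : Set Ω)
    (by rw [c2]; exact isMultiplyPretransitive_of_le (n := 3) (by omega) (by omega))
  have i3 := IsMultiplyPretransitive.index_of_fixingSubgroup_eq (G := G) ({o, p, q} : Set Ω)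
    (by rw [c3]; exact hG)
  have k2 := (fixingSubgroup G ({p, q} : Set Ω)).index_mul_card
  have k3 := (fixingSubgroup G ({o, p, q} : Set Ω)).index_mul_card
  rw [i2, c2, hn, hN, show Nat.choose 24 2 * Nat.factorial 2 = 552 from rfl] at k2
  rw [i3, c3, hn, hN, show Nat.choose 24 3 * Nat.factorial 3 = 12144 from rfl] at k3
  have l2 : Nat.card (fixingSubgroup G ({p, q} : Set Ω)) = 154 := by omega
  have l3 : Nat.card (fixingSubgroup G ({o, p, q} : Set Ω)) = 7 := by omega
  have f7 : Fact (Nat.Prime 7) := ⟨by norm_num⟩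
  have f11 : Fact (Nat.Prime 11) := ⟨by norm_num⟩
  obtain ⟨y, hy⟩ := exists_prime_orderOf_dvd_card' (G := fixingSubgroup G ({o, p, q} : Set Ω)) 7
    (by rw [l3])
  have hy' := (mem_fixingSubgroup_iff G).1 y.2
  obtain ⟨P⟩ : Nonempty (Sylow 11 (fixingSubgroup G ({p, q} : Set Ω))) := inferInstance
  have hP : Nat.card P = 11 := by
    rw [P.card_eq_multiplicity, l2, show 154 = 11 * 14 from rfl,
      Nat.factorization_mul (by norm_num) (by norm_num), Finsupp.add_apply,
      f11.out.factorization_self, Nat.factorization_eq_zero_of_not_dvd (by norm_num)]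
    rfl
  have hi : (P : Subgroup (fixingSubgroup G ({p, q} : Set Ω))).index = 14 := by
    have := (P : Subgroup (fixingSubgroup G ({p, q} : Set Ω))).index_mul_card
    rw [hP, l2] at this
    omega
  have hs : Nat.card (Sylow 11 (fixingSubgroup G ({p, q} : Set Ω))) = 1 := by
    have a1 := card_sylow_modEq_one 11 (fixingSubgroup G ({p, q} : Set Ω))
    have a2 := P.card_dvd_index
    rw [hi] at a2
    have a3 := Nat.le_of_dvd (by norm_num) a2
    unfold Nat.ModEq at a1
    generalize Nat.card (Sylow 11 (fixingSubgroup G ({p, q} : Set Ω))) = u at *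
    interval_cases u <;> omega
  have := (Nat.card_eq_one_iff_unique.1 hs).1
  have := P.normal_of_subsingleton
  have : IsCyclic P := isCyclic_of_prime_card hP
  let y' : fixingSubgroup G ({p, q} : Set Ω) :=
    ⟨y, (mem_fixingSubgroup_iff G).2 fun z hz => hy' z (Set.mem_insert_of_mem _ hz)⟩
  have hy7 : orderOf y' = 7 := by rw [← hy, ← Subgroup.orderOf_coe, ← Subgroup.orderOf_coe y]
  have e1 : MulAut.conjNormal (H := (P : Subgroup (fixingSubgroup G ({p, q} : Set Ω)))) y' = 1 := by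
    rw [← orderOf_eq_one_iff]
    have a1 := orderOf_map_dvd
      (MulAut.conjNormal (H := (P : Subgroup (fixingSubgroup G ({p, q} : Set Ω))))) y'
    have a2 := orderOf_dvd_natCard
      (MulAut.conjNormal (H := (P : Subgroup (fixingSubgroup G ({p, q} : Set Ω)))) y')
    rw [IsCyclic.card_mulAut, hP, Nat.totient_prime f11.out] at a2
    rw [hy7] at a1
    exact Nat.eq_one_of_dvd_coprimes (show Nat.Coprime 7 (11 - 1) by norm_num) a1 a2
  obtain ⟨x, hx⟩ := exists_prime_orderOf_dvd_card' (G := P) 11 (by rw [hP])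
  have e2 : (y : G) * (x : fixingSubgroup G ({p, q} : Set Ω)) * (y : G)⁻¹ =
      (x : fixingSubgroup G ({p, q} : Set Ω)) :=
    congrArg (fun u : P => ((u : fixingSubgroup G ({p, q} : Set Ω)) : G)) (DFunLike.congr_fun e1 x)
  have hx' := (mem_fixingSubgroup_iff G).1 (x : fixingSubgroup G ({p, q} : Set Ω)).2
  obtain ⟨z, hz⟩ : ∃ z : G, z = ((x : fixingSubgroup G ({p, q} : Set Ω)) : G) := ⟨_, rfl⟩
  rw [← hz] at hx' e2
  have zo : z • o = o := by
    by_contra hne
    have b1 : p ≠ z • o := fun e => hpo (MulAction.injective z ((hx' p (by simp)).trans e))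
    have b2 : q ≠ z • o := fun e => hqo (MulAction.injective z ((hx' q (by simp)).trans e))
    have := h1 y (four_le_ncard hpq hpo b1 hqo b2 (Ne.symm hne) (hy' p (by simp)) (hy' q (by simp))
      (hy' o (by simp)) (by
        rw [mem_fixedBy, ← mul_smul, mul_inv_eq_iff_eq_mul.1 e2, mul_smul, hy' o (by simp)]))
    rw [← Subgroup.orderOf_coe, this, orderOf_one] at hy
    omega
  have := Subgroup.orderOf_dvd_natCard (fixingSubgroup G ({o, p, q} : Set Ω)) (x := z)
    ((mem_fixingSubgroup_iff G).2 (by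
      rintro w (rfl | hw)
      exacts [zo, hx' w hw]))
  rw [l3, hz, Subgroup.orderOf_coe, Subgroup.orderOf_coe, hx] at this
  omega

end Cfsg.Agent.LW
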