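import Cfsg.Agent.H78.TW
import Mathlib.GroupTheory.SpecificGroups.Alternating.Simple

/-! Subgroups acting as alternating or symmetric groups through a homomorphism of an
ambient subgroup. -/

set_option autoImplicit false

namespace Cfsg.Agent.LW

open Subgroup Equiv

section perm

variable {β : Type*} [Fintype β] [DecidableEq β]

theorem eq_one_of_comm_alt (h4 : 4 ≤ Nat.card β) {y : Perm β}
    (h : ∀ a ∈ alternatingGroup β, a * y = y * a) : y = 1 := by
  by_contra hne
  obtain ⟨u, hu⟩ : ∃ u, y u ≠ u := by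
    by_contra! hc
    exact hne (Equiv.ext hc)
  obtain ⟨v, hv⟩ : ∃ v, v ∉ ({u, y u} : Set β) := by
    by_contra! hc
    have := Set.ncard_insert_le u ({y u} : Set β)
    rw [Set.eq_univ_of_forall hc, Set.ncard_univ, Set.ncard_singleton] at this
    omega
  obtain ⟨w, hw⟩ : ∃ w, w ∉ ({v, u, y u} : Set β) := by
    by_contra! hc
    have h1 := Set.ncard_insert_le u ({y u} : Set β)
    have h2 := Set.ncard_insert_le v ({u, y u} : Set β)
    rw [Set.eq_univ_of_forall hc, Set.ncard_univ] at h2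
    rw [Set.ncard_singleton] at h1
    omega
  simp only [Set.mem_insert_iff, Set.mem_singleton_iff, not_or] at hv hw
  have h1 := congrArg (· u) (h (swap (y u) w * swap (y u) v) (by
    rw [Perm.mem_alternatingGroup, map_mul, Perm.sign_swap (Ne.symm hw.2.2),
      Perm.sign_swap (Ne.symm hv.2)]; simp))
  simp only [Perm.mul_apply, swap_apply_left] at h1
  rw [swap_apply_of_ne_of_ne hv.2 (Ne.symm hw.1), swap_apply_of_ne_of_ne hu.symm (Ne.symm hv.1),
    swap_apply_of_ne_of_ne hu.symm (Ne.symm hw.2.1)] at h1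
  exact hv.2 h1

theorem alt_le_of_norm (h5 : 5 ≤ Nat.card β) {Y : Subgroup (Perm β)}
    (hn : ∀ a ∈ alternatingGroup β, ∀ y ∈ Y, a * y * a⁻¹ ∈ Y) (hne : Y ≠ ⊥) :
    alternatingGroup β ≤ Y := by
  have : (Y.subgroupOf (alternatingGroup β)).Normal := ⟨fun y hy a => hn a a.2 y hy⟩
  rcases alternatingGroup.normal_subgroup_eq_bot_or_eq_top h5
    (N := Y.subgroupOf (alternatingGroup β)) with h | h
  · refine absurd (eq_bot_iff.2 fun y hy => eq_one_of_comm_alt (by omega) fun a ha => ?_) hne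
    have h1 : a * y * a⁻¹ * y⁻¹ ∈ alternatingGroup β := by
      rw [mul_assoc, mul_assoc, ← mul_assoc y]
      exact mul_mem ha ((inferInstance : (alternatingGroup β).Normal).conj_mem _ (inv_mem ha) y)
    have h2 : (⟨_, h1⟩ : alternatingGroup β) ∈ Y.subgroupOf (alternatingGroup β) :=
      Y.mul_mem (hn a ha y hy) (Y.inv_mem hy)
    rw [h, mem_bot, Subtype.ext_iff] at h2
    exact mul_inv_eq_iff_eq_mul.1 (mul_inv_eq_one.1 h2)
  · exact subgroupOf_eq_top.1 h

theorem not_solvable_alt (h5 : 5 ≤ Nat.card β) : ¬ Group.IsSolvable (alternatingGroup β) := by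
  intro hs
  have := alternatingGroup.isSimpleGroup h5
  have h1 := (IsSimpleGroup.comm_iff_isSolvable (G := alternatingGroup β)).2 hs
  have h2 := (alternatingGroup.isMulCommutative_iff_card_le_three (α := β)).1 ⟨⟨h1⟩⟩
  omega

theorem two_mul_card_alt (h2 : 2 ≤ Nat.card β) :
    2 * Nat.card (alternatingGroup β) = (Nat.card β).factorial := by
  have : Nontrivial β := Finite.one_lt_card_iff_nontrivial.1 h2
  rw [two_mul_nat_card_alternatingGroup, Nat.card_perm]

/-- The action on the points different from a fixed point. -/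
def res {H : Type*} [Group H] (f : H →* Perm β) (b : β) (h : ∀ x, f x b = b) :
    H →* Perm {y // y ≠ b} :=
  MonoidHom.mk' (fun x => (f x).subtypePerm fun y =>
    not_congr ⟨fun e => (f x).injective (e.trans (h x).symm), fun e => by rw [e, h]⟩)
    fun x y => Equiv.ext fun z => Subtype.ext (congrArg (· (z : β)) (map_mul f x y))

omit [Fintype β] [DecidableEq β] in
theorem res_apply {H : Type*} [Group H] (f : H →* Perm β) (b : β) (h : ∀ x, f x b = b) (x : H)
    (y : {y // y ≠ b}) : (res f b h x y : β) = f x y := rfl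

omit [Fintype β] [DecidableEq β] in
theorem res_eq_one {H : Type*} [Group H] (f : H →* Perm β) (b : β) (h : ∀ x, f x b = b) (x : H) :
    res f b h x = 1 ↔ f x = 1 := by
  refine ⟨fun e => Equiv.ext fun y => ?_, fun e => Equiv.ext fun y => Subtype.ext ?_⟩
  · by_cases hy : y = b
    · rw [hy, h]; rfl
    · exact congrArg Subtype.val (congrArg (· ⟨y, hy⟩) e)
  · rw [res_apply, e]; rfl

theorem sign_res {H : Type*} [Group H] (f : H →* Perm β) (b : β) (h : ∀ x, f x b = b) (x : H) :
    Perm.sign (res f b h x) = Perm.sign (f x) :=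
  Perm.sign_subtypePerm (f x) (fun y =>
    not_congr ⟨fun e => (f x).injective (e.trans (h x).symm), fun e => by rw [e, h]⟩)
    fun y hy e => hy (by rw [e, h])

omit [DecidableEq β] in
theorem card_ne (b : β) : Nat.card {y // y ≠ b} = Nat.card β - 1 := by
  classical
  simp [Fintype.card_subtype_compl]

end perm

variable {G : Type*} [Group G] {β : Type*} [Fintype β] [DecidableEq β] {H K : Subgroup G}

/-- The image of `X ⊓ H`. -/
def im (f : H →* Perm β) (X : Subgroup G) : Subgroup (Perm β) := (X.subgroupOf H).map f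

omit [Fintype β] [DecidableEq β] in
theorem mem_im {f : H →* Perm β} {X : Subgroup G} {σ : Perm β} :
    σ ∈ im f X ↔ ∃ x : H, (x : G) ∈ X ∧ f x = σ := Iff.rfl

omit [Fintype β] [DecidableEq β] in
theorem im_self (f : H →* Perm β) : im f H = f.range := by
  rw [im, subgroupOf_self, MonoidHom.range_eq_map]

variable {f : H →* Perm β} (hK : ∀ x : H, f x = 1 ↔ (x : G) ∈ K)
include hK

theorem im_alt (h5 : 5 ≤ Nat.card β) {X Y : Subgroup G} (hY : alternatingGroup β ≤ im f Y)
    (hX : X ≤ H) (hn : Y ≤ normalizer (X : Set G)) (hne : ¬ X ≤ K) :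
    alternatingGroup β ≤ im f X := by
  refine alt_le_of_norm h5 ?_ fun e => hne fun x hx => ?_
  · rintro a ha _ ⟨x, hx, rfl⟩
    obtain ⟨y, hy, rfl⟩ := hY ha
    exact ⟨y * x * y⁻¹, H70.conj_mem_of_le_norm hn hy hx, by simp⟩
  · have : f ⟨x, hX hx⟩ ∈ im f X := ⟨⟨x, hX hx⟩, hx, rfl⟩
    rw [e, mem_bot] at this
    exact (hK _).1 this

theorem le_ker_of_comm (h4 : 4 ≤ Nat.card β) {X Y : Subgroup G}
    (hY : alternatingGroup β ≤ im f Y) (hX : X ≤ H) (hc : ∀ x ∈ X, ∀ y ∈ Y, y * x = x * y) :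
    X ≤ K := fun x hx => (hK ⟨x, hX hx⟩).1 (eq_one_of_comm_alt h4 fun a ha => by
  obtain ⟨y, hy, rfl⟩ := hY ha
  rw [← map_mul, ← map_mul]
  exact congrArg f (Subtype.ext (hc x hx y hy)))

omit [Fintype β] [DecidableEq β] in
theorem card_im {X : Subgroup G} (hX : X ≤ H) :
    Nat.card X = Nat.card (im f X) * Nat.card (X ⊓ K : Subgroup G) := by
  let f' : X →* Perm β := f.comp (inclusion hX)
  have h1 : f'.range = im f X := by
    ext σ
    exact ⟨by rintro ⟨x, rfl⟩; exact ⟨inclusion hX x, x.2, rfl⟩,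
      by rintro ⟨x, hx, rfl⟩; exact ⟨⟨x, hx⟩, rfl⟩⟩
  have h2 : f'.ker = K.subgroupOf X := by
    ext x
    exact hK (inclusion hX x)
  rw [← h1, ← f'.ker.index_mul_card, index_ker, h2, ← inf_subgroupOf_left,
    Nat.card_congr (subgroupOfEquivOfLe inf_le_left).toEquiv]

omit hK in
theorem not_solvable_of_im (h5 : 5 ≤ Nat.card β) {X : Subgroup G}
    (h : alternatingGroup β ≤ im f X) : ¬ Group.IsSolvable X := by
  intro hs
  have h1 : Group.IsSolvable (X.subgroupOf H) :=
    Group.isSolvable_of_isSolvable_injective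
      (f := (H.subtype.comp (X.subgroupOf H).subtype).codRestrict X fun x => x.2)
      fun x y e => Subtype.ext (Subtype.ext (Subtype.mk.inj e))
  have h2 : Group.IsSolvable (im f X) :=
    Group.isSolvable_of_surjective (f.subgroupMap_surjective _)
  exact not_solvable_alt h5 (Group.isSolvable_of_isSolvable_injective (inclusion_injective h))

theorem alt_of_card {X : Subgroup G} (hX : X ≤ H) (hb : X ⊓ K = ⊥)
    (hc : (Nat.card β).factorial ≤ 2 * Nat.card X) : alternatingGroup β ≤ im f X := by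
  refine Perm.alternatingGroup_le_of_index_le_two ?_
  have h1 := card_im hK hX
  have h2 := (im f X).index_mul_card
  rw [hb, card_bot, mul_one] at h1
  rw [Nat.card_perm, ← h1] at h2
  have h3 : 0 < Nat.card X := by rw [h1]; exact Nat.card_pos
  exact Nat.le_of_mul_le_mul_right (h2 ▸ hc) h3

omit [DecidableEq β] in
theorem card_le_of_im {X : Subgroup G} (hX : X ≤ H) :
    Nat.card X ≤ (Nat.card β).factorial * Nat.card (X ⊓ K : Subgroup G) := by
  rw [card_im hK hX, ← Nat.card_perm]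
  exact Nat.mul_le_mul_right _ (card_le_card_group _)

theorem le_card_of_im (h2 : 2 ≤ Nat.card β) {X : Subgroup G} (hX : X ≤ H)
    (h : alternatingGroup β ≤ im f X) :
    (Nat.card β).factorial * Nat.card (X ⊓ K : Subgroup G) ≤ 2 * Nat.card X := by
  rw [card_im hK hX, ← two_mul_card_alt h2, mul_assoc]
  exact Nat.mul_le_mul_left _ (Nat.mul_le_mul_right _ (card_le_of_le h))

omit hK in
theorem exists_mul_of_im (h3 : 3 ≤ Nat.card β) {X N : Subgroup G} {b : β}
    (hb : ∀ x : H, f x b = b ↔ (x : G) ∈ N) (h : alternatingGroup β ≤ im f X) {m : G}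
    (hm : m ∈ H) : ∃ x ∈ X, ∃ y ∈ H ⊓ N, m = x * y := by
  obtain ⟨a, ha⟩ := (alternatingGroup.isPretransitive_of_three_le_card β h3).exists_smul_eq b
    (f ⟨m, hm⟩ b)
  obtain ⟨x, hx, e⟩ := h a.2
  refine ⟨x, hx, (x⁻¹ * ⟨m, hm⟩ : H), ⟨(x⁻¹ * ⟨m, hm⟩ : H).2, (hb _).1 ?_⟩, by simp⟩
  rw [map_mul, map_inv, Perm.mul_apply, Perm.inv_eq_iff_eq, e]
  exact ha.symm

omit hK in
theorem le_norm_of_im (h3 : 3 ≤ Nat.card β) {X N U : Subgroup G} {b : β}
    (hb : ∀ x : H, f x b = b ↔ (x : G) ∈ N) (h : alternatingGroup β ≤ im f X)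
    (h1 : X ≤ normalizer (U : Set G)) (h2 : H ⊓ N ≤ normalizer (U : Set G)) :
    H ≤ normalizer (U : Set G) := fun m hm => by
  obtain ⟨x, hx, y, hy, rfl⟩ := exists_mul_of_im h3 hb h hm
  exact mul_mem (h1 hx) (h2 hy)

end Cfsg.Agent.LW
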