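import Cfsg.Agent.LW.SubA

/-! A primitive group with an unfaithful alternating or symmetric subconstituent: the two
kernels. -/

set_option autoImplicit false
set_option linter.unusedSectionVars false

namespace Cfsg.Agent.LW

open Cfsg Subgroup Equiv Cfsg.Agent.H70 Cfsg.Agent.H78
open Cfsg.Agent.H44 hiding pCoreOf_le pCoreOf_isPGroup le_pCoreOf

universe u
variable {G : Type u} [Group G] [Finite G] {β γ : Type*} [Fintype β] [DecidableEq β] [Fintype γ]
  [DecidableEq γ] {M N : Subgroup G}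

theorem Eof_ne {X : Subgroup G} (hF : Fof M = ⊥) (h : SN M X) (hX : X ≠ ⊥) : Eof X ≠ ⊥ :=
  fun e => hX (eq_bot_of_FSof_eq_bot (by
    rw [FSof_eq, e, bot_sup_eq, eq_bot_iff, ← hF]; exact Fof_le_Fof_of_sn h))

theorem two_lt {X : Subgroup G} (hF : Fof M = ⊥) (h : SN M X) (hX : X ≠ ⊥) : 2 < Nat.card X := by
  by_contra hc
  have h1 := (one_lt_card_iff_ne_bot X).2 hX
  have h2 : IsPGroup 2 X := IsPGroup.of_card (n := 1) (by omega)
  exact hX (eq_bot_iff.2 (hF ▸ le_Fof_of_sn h h2.isNilpotent))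

theorem cj_Eof (g : G) (X : Subgroup G) : cj g (Eof X) = Eof (cj g X) :=
  map_Eof_inj _ (MulAut.conj g).injective X

theorem comm_of_cent {X Y : Subgroup G} (h : X ≤ centralizer (Y : Set G)) :
    ∀ x ∈ X, ∀ y ∈ Y, y * x = x * y := fun _ hx _ hy => h hx _ hy

theorem card_mul_le {X Y Z : Subgroup G} (hX : X ≤ Z) (hY : Y ≤ Z) (h : X ⊓ Y = ⊥) :
    Nat.card X * Nat.card Y ≤ Nat.card Z := by
  rw [← Nat.card_prod]
  refine Nat.card_le_card_of_injective
    (fun p : X × Y => (⟨p.1 * p.2, mul_mem (hX p.1.2) (hY p.2.2)⟩ : Z)) ?_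
  rintro ⟨x, y⟩ ⟨x', y'⟩ e
  have e1 : (x : G) * y = x' * y' := congrArg Subtype.val e
  have e2 : (x' : G)⁻¹ * x = y' * (y : G)⁻¹ := by
    rw [inv_mul_eq_iff_eq_mul, ← mul_assoc, ← e1, mul_inv_cancel_right]
  have e3 : (x' : G)⁻¹ * x ∈ X ⊓ Y :=
    ⟨X.mul_mem (X.inv_mem x'.2) x.2, e2 ▸ Y.mul_mem y'.2 (Y.inv_mem y.2)⟩
  rw [h, mem_bot, inv_mul_eq_one] at e3
  rw [e3, mul_left_cancel_iff] at e1
  exact Prod.ext (Subtype.ext e3.symm) (Subtype.ext e1)

/-- `M` acts with point stabiliser `M ⊓ N` and kernel the core. -/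
structure Act (M N : Subgroup G) (Φ : M →* Perm β) (b : β) : Prop where
  ker : ∀ x : M, Φ x = 1 ↔ (x : G) ∈ core M N
  fix : ∀ x : M, Φ x b = b ↔ (x : G) ∈ N

section
variable {Φ : M →* Perm β} {b : β} (h : Act M N Φ b) {B : Subgroup G} (h1 : B ≤ M) (h2 : B ≤ N)

/-- the action of the point stabiliser on the other points -/
def Act.rs : B →* Perm {y // y ≠ b} :=
  res (Φ.comp (inclusion h1)) b fun x => (h.fix _).2 (h2 x.2)

theorem Act.rs_ker (x : B) : h.rs h1 h2 x = 1 ↔ (x : G) ∈ core M N :=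
  (res_eq_one _ _ _ _).trans (h.ker _)

theorem Act.rs_sign (x : B) : Perm.sign (h.rs h1 h2 x) = Perm.sign (Φ (inclusion h1 x)) :=
  sign_res _ _ _ _

theorem Act.rs_alt (h3 : M ⊓ N ≤ B) (halt : alternatingGroup β ≤ im Φ M) :
    alternatingGroup _ ≤ im (h.rs h1 h2) B := by
  intro σ hσ
  obtain ⟨x, -, e⟩ := halt (x := Perm.ofSubtype σ) (by
    rwa [Perm.mem_alternatingGroup, Perm.sign_ofSubtype])
  have hx : (x : G) ∈ B := h3 ⟨x.2, (h.fix x).1 (by
    rw [e]; exact Perm.ofSubtype_apply_of_not_mem σ (not_not.2 rfl))⟩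
  refine ⟨⟨x, hx⟩, hx, Equiv.ext fun y => Subtype.ext ?_⟩
  change Φ x y = _
  rw [e, Perm.ofSubtype_apply_coe]

end

/-- The situation of the theorem. -/
structure Sit (M N : Subgroup G) (g : G) (Φ : M →* Perm β) (b : β) (Θ : N →* Perm γ) (a : γ) :
    Prop where
  prim : PrimSub M
  hg : N = cj g M
  ne : M ≠ N
  A : Act M N Φ b
  A' : Act N M Θ a
  h6 : 6 ≤ Nat.card β
  cd : Nat.card γ = Nat.card β
  alt : alternatingGroup β ≤ im Φ M
  K0 : core M N ≠ ⊥

variable {g : G} {Φ : M →* Perm β} {b : β} {Θ : N →* Perm γ} {a : γ} (s : Sit M N g Φ b Θ a)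
include s

namespace Sit

theorem h5 : 5 ≤ Nat.card {y // y ≠ b} := by rw [card_ne]; have := s.h6; omega

theorem h5' : 5 ≤ Nat.card {y // y ≠ a} := by rw [card_ne, s.cd]; have := s.h6; omega

theorem primN : PrimSub N := s.hg ▸ s.prim.conj g

theorem hg' : M = cj g⁻¹ N := by rw [s.hg, cj_inv_cj]

theorem altB : alternatingGroup _ ≤ im (s.A.rs inf_le_left inf_le_right) (M ⊓ N) :=
  s.A.rs_alt _ _ le_rfl s.alt

theorem nM {X : Subgroup G} (h : N ≤ normalizer (X : Set G)) :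
    M ≤ normalizer (cj g⁻¹ X : Set G) := by
  rw [← cj_normalizer]; exact s.hg'.le.trans (cj_mono _ h)

theorem nN {X : Subgroup G} (h : M ≤ normalizer (X : Set G)) :
    N ≤ normalizer (cj g X : Set G) := by
  rw [← cj_normalizer]; exact s.hg.le.trans (cj_mono _ h)

theorem lM {X : Subgroup G} (h : X ≤ N) : cj g⁻¹ X ≤ M := (cj_mono _ h).trans s.hg'.ge

theorem lN {X : Subgroup G} (h : X ≤ M) : cj g X ≤ N := (cj_mono _ h).trans s.hg.ge

theorem FB : Fof (M ⊓ N) = ⊥ := by
  refine eq_bot_iff.2 (H59.Fof_le fun p _ => (pCore_eq_bot_of_le_core s.prim s.hg s.ne ?_).le)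
  by_contra hc
  exact not_solvable_of_im s.h5 (im_alt (s.A.rs_ker _ _) s.h5 s.altB (pCoreOf_le _)
    (le_norm_pCoreOf _) hc) (have := (pCoreOf_isPGroup (p := p) (M ⊓ N)).isNilpotent; inferInstance)

theorem FM : Fof M = ⊥ := by
  have h1 : Fof M ≤ core M N := by
    by_contra hc
    exact not_solvable_of_im (by have := s.h6; omega) (im_alt s.A.ker (by have := s.h6; omega)
      s.alt (Fof_le _) (le_normalizer_Fof _) hc) (Fof_isSolvable M)
  exact eq_bot_iff.2 (s.FB ▸ le_Fof_of_sn (SN.of_le_normalizer (le_inf (Fof_le _)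
    (h1.trans (core_le_right _ _))) (inf_le_left.trans (le_normalizer_Fof _))) (Fof_isNilpotent M))

theorem FN : Fof N = ⊥ := by
  rw [s.hg, ← map_Fof_inj _ (MulAut.conj g).injective, s.FM, Subgroup.map_bot]

theorem card_K : Nat.card (core M N) ≤ 2 * Nat.card (core N M) := by
  have h1 := le_card_of_im s.A.ker (by have := s.h6; omega) le_rfl s.alt
  have h2 := card_le_of_im s.A'.ker le_rfl
  rw [inf_eq_right.2 (core_le_left _ _)] at h1 h2
  have h3 : Nat.card N = Nat.card M := by rw [← card_cj g M, ← s.hg]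
  rw [s.cd, h3] at h2
  refine Nat.le_of_mul_le_mul_left (h1.trans ?_) (Nat.factorial_pos _)
  rw [mul_left_comm]
  exact Nat.mul_le_mul_left _ h2

omit s in
theorem snB : SN (M ⊓ N) (core M N) :=
  SN.of_le_normalizer (le_inf (core_le_left _ _) (core_le_right _ _))
    (inf_le_left.trans (le_norm_core _ _))

omit s in
theorem snB' : SN (M ⊓ N) (core N M) := inf_comm N M ▸ snB

omit s in
theorem snK : SN M (core M N) := SN.of_le_normalizer (core_le_left _ _) (le_norm_core _ _)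

omit s in
/-- a component of one kernel outside the other -/
theorem exists_comp (hF : Fof M = ⊥) (h0 : core M N ≠ ⊥) (h : core M (core N M) = ⊥) :
    ∃ T, T ≠ ⊥ ∧ T ≤ core M N ∧ ¬ T ≤ core N M ∧ T ≤ centralizer (core N M : Set G) := by
  have h1 : ¬ Eof (core M N) ≤ core N M := fun hc => Eof_ne hF snK h0 (eq_bot_iff.2 (h ▸
    le_core_of_norm ((Eof_le _).trans (core_le_left _ _)) hc
      ((le_norm_core _ _).trans (normalizer_le_normalizer_Eof _))))
  rw [Eof_le_iff] at h1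
  push Not at h1
  obtain ⟨T, hT, h2⟩ := h1
  exact ⟨T, fun e => h2 (e ▸ bot_le), hT.le, h2, commutator_eq_bot_iff_le_centralizer.1
    (((hT.of_sn snB).le_or_commutator_eq_bot snB').resolve_left h2)⟩

theorem core_core : core N (core M N) = ⊥ := by
  by_contra hB
  have hA : core M (core N M) = ⊥ := by
    by_contra hA
    obtain ⟨p, hp, -, -, h, -⟩ := thompson_wielandt s.prim s.hg s.ne hA (le_norm_core _ _)
      (core_le_right _ _) hB (le_norm_core _ _) (core_le_right _ _)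
    have := Fact.mk hp
    exact s.K0 (eq_bot_iff.2 ((core_le_left _ _).trans (eq_bot_of_FSof_eq_bot
      (eq_bot_iff.2 (h ▸ s.FM ▸ H59.Op_le_Fof M))).le))
  have hE : Eof (M ⊓ N) = Eof M :=
    inf_comm N M ▸ tw_Eof s.primN hB (le_norm_core _ _) (core_le_right _ _)
  have hEK : Eof M ≤ core M N :=
    le_core_of_norm (Eof_le _) (hE ▸ (Eof_le _).trans inf_le_right) (le_normalizer_Eof _)
  have n2 := s.nM (le_norm_core N M)
  have l2 := s.lM (core_le_left N M)
  set K2 := cj g⁻¹ (core N M) with hK2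
  have sn2 : SN M K2 := SN.of_le_normalizer l2 n2
  by_cases hc : K2 ≤ core M N
  · obtain ⟨T, hT0, hT1, -, hT2⟩ := exists_comp s.FM s.K0 hA
    have hC : M ⊓ centralizer (K2 : Set G) ≠ ⊥ := fun e => hT0 (cj_eq_bot_iff.1 (eq_bot_iff.2
      (e ▸ le_inf (s.lM (hT1.trans (core_le_right _ _))) (cj_centralizer g⁻¹ _ ▸ cj_mono _ hT2))))
    have snC := sn_inf_centralizer n2
    have h1 := two_lt s.FM (snC.trans (sn_Eof _)) (Eof_ne s.FM snC hC)
    have h2 := card_mul_le ((Eof_le_Eof_of_sn snC).trans hEK) hc (eq_bot_iff.2 (s.FM ▸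
      (le_inf inf_le_right (inf_le_left.trans ((Eof_le _).trans inf_le_right))).trans
        (center_le_Fof_of_sn sn2)))
    have h3 := s.card_K
    rw [card_cj] at h2
    have h4 : 0 < Nat.card (core N M) := Nat.card_pos
    nlinarith
  · have h3 : 3 ≤ Nat.card β := by have := s.h6; omega
    have ha := im_alt s.A.ker (by have := s.h6; omega) s.alt l2 n2 hc
    have h1 : Eof (core N M) ≤ Eof K2 := Eof_le_iff.2 fun T hT => by
      have hTM : Comp M T := comp_Eof_iff.1 (hE ▸ (hT.of_sn snB').comp_Eof)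
      refine (hTM.mono ((hTM.le_or_commutator_eq_bot sn2).resolve_right fun e => ?_) l2).le_Eof
      refine hT.qs.ne_bot (eq_bot_iff.2 (hA ▸ fun t ht => mem_core.2 ⟨hTM.le ht, fun m hm => ?_⟩))
      obtain ⟨x, hx, y, hy, e1⟩ := exists_mul_of_im h3 s.A.fix ha (inv_mem hm)
      have e2 : x * t = t * x := commutator_eq_bot_iff_le_centralizer.1 e ht x hx
      have e3 : m * t * m⁻¹ = y⁻¹ * t * y⁻¹⁻¹ := by
        rw [← inv_inv m, e1, inv_inv, inv_inv, mul_inv_rev, mul_assoc, mul_assoc, ← mul_assoc t,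
          ← e2, mul_assoc, inv_mul_cancel_left, mul_assoc]
      rw [e3]
      exact conj_mem_of_le_norm (le_norm_core N M) (inv_mem hy.2) (hT.le ht)
    have h2 : Eof (core N M) = Eof K2 :=
      eq_of_le_of_card_ge h1 (by rw [hK2, ← cj_Eof, card_cj])
    have h4 : Eof (core N M) = ⊥ := s.prim.eq_bot s.primN s.ne
      ((Eof_le _).trans (core_le_right _ _)) ((Eof_le _).trans (core_le_left _ _))
      (h2 ▸ n2.trans (normalizer_le_normalizer_Eof _))
      ((le_norm_core _ _).trans (normalizer_le_normalizer_Eof _))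
    have h5 : core N M = ⊥ := by_contra fun e => Eof_ne s.FN snK e h4
    exact hc (by rw [hK2, h5, cj_bot]; exact bot_le)

theorem K0' : core N M ≠ ⊥ := fun e => by
  have h1 := s.card_K
  have h2 := two_lt s.FM snK s.K0
  rw [e, card_bot] at h1
  omega

end Sit

end Cfsg.Agent.LW
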