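import Cfsg.Agent.LW.SubB

/-! A primitive group with an unfaithful alternating or symmetric subconstituent: the structure
of the point stabiliser. -/

set_option autoImplicit false
set_option linter.unusedSectionVars false

namespace Cfsg.Agent.LW

open Cfsg Subgroup Equiv Cfsg.Agent.H70 Cfsg.Agent.H78
open Cfsg.Agent.H44 hiding pCoreOf_le pCoreOf_isPGroup le_pCoreOf

universe u

theorem eq_top_of_odd {β : Type*} [Fintype β] [DecidableEq β] {Y : Subgroup (Perm β)}
    (h : alternatingGroup β ≤ Y) {τ : Perm β} (hτ : τ ∈ Y) (ho : Perm.sign τ ≠ 1) : Y = ⊤ := by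
  refine eq_top_iff.2 fun σ _ => ?_
  rcases Int.units_eq_one_or (Perm.sign σ) with e | e
  · exact h e
  · have := Y.mul_mem (h (x := σ * τ⁻¹) (by
      rw [Perm.mem_alternatingGroup, map_mul, map_inv, e,
        (Int.units_eq_one_or _).resolve_left ho]; simp)) hτ
    simpa using this

variable {G : Type u} [Group G] [Finite G] {β γ : Type*} [Fintype β] [DecidableEq β] [Fintype γ]
  [DecidableEq γ] {M N : Subgroup G}
  {g : G} {Φ : M →* Perm β} {b : β} {Θ : N →* Perm γ} {a : γ} (s : Sit M N g Φ b Θ a)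

/-- the centraliser of the kernel -/
abbrev cK (M N : Subgroup G) : Subgroup G := M ⊓ centralizer (core M N : Set G)

theorem norm_cK : M ≤ normalizer (cK M N : Set G) :=
  norm_inf le_normalizer (norm_centralizer (le_norm_core _ _))

include s

namespace Sit

theorem g5 : 5 ≤ Nat.card β := by have := s.h6; omega

theorem cK_inf : cK M N ⊓ core M N = ⊥ :=
  eq_bot_iff.2 (s.FM ▸ (le_inf inf_le_right (inf_le_left.trans inf_le_right)).trans
    (center_le_Fof_of_sn snK))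

theorem altC : alternatingGroup β ≤ im Φ (cK M N) := by
  obtain ⟨T, -, h1, h2, h3⟩ := exists_comp s.FN s.K0' s.core_core
  exact im_alt s.A.ker s.g5 s.alt inf_le_left norm_cK fun e =>
    h2 ((le_inf (h1.trans (core_le_right _ _)) h3).trans e)

theorem D_bot : cj g (cK M N) ⊓ core N M = ⊥ := by
  by_contra hD
  set D := cj g (cK M N) ⊓ core N M with hDd
  have nD : N ≤ normalizer (D : Set G) := norm_inf (s.nN norm_cK) (le_norm_core _ _)
  have lD : D ≤ M ⊓ N :=
    inf_le_right.trans (le_inf (core_le_right _ _) (core_le_left _ _))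
  have l2 : cj g⁻¹ D ≤ cK M N := le_cj_iff.1 inf_le_left
  have b2 : cj g⁻¹ D ⊓ core M N = ⊥ := eq_bot_iff.2 (s.cK_inf ▸ inf_le_inf_right _ l2)
  have m2 : cj g⁻¹ D ≤ M := l2.trans inf_le_left
  have a2 := im_alt s.A.ker s.g5 s.alt m2 (s.nM nD) fun e =>
    hD (cj_eq_bot_iff.1 (by rwa [inf_eq_left.2 e] at b2))
  have lZ : cj g⁻¹ (D ⊓ core M N) ≤ cj g⁻¹ D := cj_mono _ inf_le_left
  by_cases hc : cj g⁻¹ (D ⊓ core M N) ≤ core M N
  · have h1 : D ⊓ core M N = ⊥ := cj_eq_bot_iff.1 (eq_bot_iff.2 (b2 ▸ le_inf lZ hc))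
    have h2 := card_le_of_im (s.A.rs_ker inf_le_left inf_le_right) lD
    have h3 := le_card_of_im s.A.ker (by have := s.h6; omega) m2 a2
    rw [b2, card_bot, card_cj, ← Nat.mul_factorial_pred (by have := s.h6; omega)] at h3
    rw [h1, card_bot, card_ne] at h2
    have h4 := Nat.factorial_pos (Nat.card β - 1)
    have := s.h6
    nlinarith
  · have aZ := im_alt s.A.ker s.g5 a2 (lZ.trans m2) (by
      rw [← cj_normalizer]
      exact cj_mono _ (norm_inf le_normalizer ((lD.trans inf_le_left).trans (le_norm_core _ _)))) hc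
    set Y := cj g⁻¹ D ⊓ ((alternatingGroup β).comap Φ).map M.subtype with hY
    have h1 : Y ≤ cj g⁻¹ (D ⊓ core M N) := by
      rintro _ ⟨hy, y, hy', rfl⟩
      obtain ⟨z, hz, e⟩ := aZ hy'
      have h2 : ((z⁻¹ * y : M) : G) ∈ cj g⁻¹ D ⊓ core M N :=
        ⟨(cj g⁻¹ D).mul_mem ((cj g⁻¹ D).inv_mem (lZ hz)) hy,
          (s.A.ker _).1 (by rw [map_mul, map_inv, e, inv_mul_cancel])⟩
      rw [b2, mem_bot, coe_mul, coe_inv, inv_mul_eq_one] at h2
      change (y : G) ∈ _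
      exact h2 ▸ hz
    have h2 := cj_le_iff_le_cj_inv.2 h1
    have h3 : Y = ⊥ := cj_eq_bot_iff.1 (eq_bot_iff.2 (s.core_core ▸ le_core_of_norm
      (h2.trans (inf_le_left.trans (lD.trans inf_le_right))) (h2.trans inf_le_right)
      (s.nN (norm_inf (s.nM nD) (le_norm_map_subtype _)))))
    refine not_solvable_of_im (f := Φ) (X := Y) s.g5 (fun σ hσ => ?_) (h3 ▸ inferInstance)
    obtain ⟨x, hx, rfl⟩ := a2 hσ
    exact ⟨x, ⟨hx, x, hσ, rfl⟩, rfl⟩

theorem altC1 : alternatingGroup γ ≤ im Θ (cj g (cK M N)) := by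
  refine alt_of_card s.A'.ker (s.lN inf_le_left) s.D_bot ?_
  have := le_card_of_im s.A.ker (by have := s.h6; omega) inf_le_left s.altC
  rwa [s.cK_inf, card_bot, mul_one, ← s.cd, ← card_cj g] at this

theorem centC1 : cj g (cK M N) ≤ centralizer (core N M : Set G) :=
  commutator_eq_bot_iff_le_centralizer.1 (H59.commutator_eq_bot_of_disjoint'
    (disjoint_iff.2 s.D_bot) le_rfl le_rfl ((s.lN inf_le_left).trans (le_norm_core _ _))
    ((core_le_left _ _).trans (s.nN norm_cK)))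

theorem KK : core M N ⊓ core N M = ⊥ := by
  have h : M ⊓ N ≤ normalizer ((core M N ⊓ core N M : Subgroup G) : Set G) :=
    norm_inf (inf_le_left.trans (le_norm_core _ _)) (inf_le_right.trans (le_norm_core _ _))
  exact s.prim.eq_bot s.primN s.ne (inf_le_left.trans (core_le_left _ _))
    (inf_le_right.trans (core_le_left _ _))
    (le_norm_of_im (by have := s.h6; omega) s.A.fix s.altC
      (norm_of_cent (inf_le_right.trans (centralizer_le inf_le_left))) h)
    (le_norm_of_im (by have := s.h6; have := s.cd; omega) s.A'.fix s.altC1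
      (norm_of_cent (s.centC1.trans (centralizer_le inf_le_right))) (inf_comm M N ▸ h))

theorem card_eq : Nat.card (core N M) = Nat.card (core M N) := by
  have h1 : cj g (core M N) ≤ core N M := by
    refine le_ker_of_comm s.A'.ker (by have := s.h6; have := s.cd; omega) s.altC1
      (s.lN (core_le_left _ _)) (comm_of_cent ?_)
    rw [← cj_centralizer]
    exact cj_mono _ (cent_comm.1 inf_le_right)
  have h2 : cj g⁻¹ (core N M) ≤ core M N := by
    refine le_ker_of_comm s.A.ker (by have := s.h6; omega) s.altC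
      (s.lM (core_le_left _ _)) (comm_of_cent ?_)
    rw [← le_cj_iff, cj_centralizer]
    exact cent_comm.1 s.centC1
  exact le_antisymm (card_cj g⁻¹ _ ▸ card_le_of_le h2) (card_cj g _ ▸ card_le_of_le h1)

theorem altK : alternatingGroup _ ≤ im (s.A'.rs inf_le_right (inf_le_left : M ⊓ N ≤ M))
    (core M N) :=
  im_alt (s.A'.rs_ker _ _) s.h5' (s.A'.rs_alt _ _ (inf_comm N M).le
      (s.altC1.trans (map_mono (comap_mono (s.lN inf_le_left)))))
    (le_inf (core_le_left _ _) (core_le_right _ _)) (inf_le_left.trans (le_norm_core _ _))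
    fun e => s.K0 (by rw [← s.KK, inf_eq_left.2 e])

theorem exists_psi : ∃ ψ : M →* Perm {y // y ≠ a}, (∀ x, Φ x = 1 → ψ x = 1 → x = 1) ∧
    (∀ σ ∈ alternatingGroup β, ∃ x, Φ x = σ ∧ ψ x = 1) ∧
    (∀ τ ∈ alternatingGroup _, ∃ x, Φ x = 1 ∧ ψ x = τ) ∧
    ((∀ x, Perm.sign (Φ x) = 1) → ∀ x, Perm.sign (ψ x) = 1) := by
  have hn : ((cK M N).subgroupOf M).Normal :=
    (normal_subgroupOf_iff_le_normalizer inf_le_left).2 norm_cK
  have lK : core M N ≤ M ⊓ N := le_inf (core_le_left _ _) (core_le_right _ _)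
  let ψ0 := s.A'.rs inf_le_right (inf_le_left : M ⊓ N ≤ M)
  let π : (M ⊓ N : Subgroup G) →* M ⧸ (cK M N).subgroupOf M :=
    (QuotientGroup.mk' _).comp (inclusion inf_le_left)
  have hπ : Function.Surjective π := by
    intro q
    obtain ⟨m, rfl⟩ := QuotientGroup.mk_surjective q
    obtain ⟨x, hx, y, hy, e⟩ := exists_mul_of_im (by have := s.h6; omega) s.A.fix s.altC
      (inv_mem m.2)
    refine ⟨⟨y, hy⟩⁻¹, QuotientGroup.eq.2 ?_⟩
    change y⁻¹⁻¹ * (m : G) ∈ cK M N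
    rw [← inv_inv (m : G), e, mul_inv_rev, inv_inv, mul_inv_cancel_left]
    exact inv_mem hx
  have hk : π.ker ≤ ψ0.ker := fun y hy => (s.A'.rs_ker _ _ y).2
    (le_ker_of_comm (X := (M ⊓ N) ⊓ cK M N) (s.A'.rs_ker _ _) (by have := s.h5'; omega) s.altK
      inf_le_left (comm_of_cent (inf_le_right.trans inf_le_right))
      ⟨y.2, (QuotientGroup.eq_one_iff (N := (cK M N).subgroupOf M) (inclusion inf_le_left y)).1 hy⟩)
  let ψ : M →* Perm {y // y ≠ a} := (π.liftOfSurjective hπ ⟨ψ0, hk⟩).comp (QuotientGroup.mk' _)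
  have e1 : ∀ (x : M) (hx : (x : G) ∈ M ⊓ N), ψ x = ψ0 ⟨x, hx⟩ := fun x hx =>
    π.liftOfRightInverse_comp_apply _ (Function.rightInverse_surjInv hπ) ⟨ψ0, hk⟩ ⟨x, hx⟩
  have e2 : ∀ σ ∈ alternatingGroup β, ∃ x, Φ x = σ ∧ ψ x = 1 := fun σ hσ => by
    obtain ⟨x, hx, e⟩ := s.altC hσ
    refine ⟨x, e, ?_⟩
    change π.liftOfSurjective hπ ⟨ψ0, hk⟩ (x : M ⧸ (cK M N).subgroupOf M) = 1
    rw [(QuotientGroup.eq_one_iff x).2 hx, map_one]
  refine ⟨ψ, fun x h1 h2 => ?_, e2, fun τ hτ => ?_, fun hs x => ?_⟩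
  · have h3 := (s.A.ker x).1 h1
    rw [e1 x (lK h3)] at h2
    exact Subtype.ext (mem_bot.1 (s.KK ▸ mem_inf.2 ⟨h3, (s.A'.rs_ker _ _ ⟨x, lK h3⟩).1 h2⟩))
  · obtain ⟨x, hx, e⟩ := s.altK hτ
    exact ⟨⟨x, x.2.1⟩, (s.A.ker _).2 hx, (e1 _ x.2).trans e⟩
  · by_contra ho
    obtain ⟨c, h1, h2⟩ := e2 _ (hs x)
    have h3 := (s.A.ker (c⁻¹ * x)).1 (by rw [map_mul, map_inv, h1, inv_mul_cancel])
    have h4 := eq_top_of_odd s.altK (τ := ψ x) ⟨⟨_, lK h3⟩, h3, by
      rw [← e1 _ (lK h3), map_mul, map_inv, h2, inv_one, one_mul]⟩ ho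
    have h5 := card_im (s.A'.rs_ker inf_le_right inf_le_left) lK
    have h6 := card_im (s.A.rs_ker inf_le_left inf_le_right)
      (le_inf (core_le_right N M) (core_le_left N M))
    have h7 : im (s.A.rs inf_le_left inf_le_right) (core N M) ≤ alternatingGroup _ := by
      rintro _ ⟨y, -, rfl⟩
      exact (s.A.rs_sign _ _ y).trans (hs _)
    have h8 := card_le_of_le h7
    have h9 := two_mul_card_alt (β := {y // y ≠ b}) (by have := s.h5; omega)
    rw [h4, s.KK, card_top, Nat.card_perm, card_bot, card_ne, s.cd] at h5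
    rw [inf_comm (core N M), s.KK, card_bot, s.card_eq] at h6
    rw [card_ne] at h9
    have := Nat.factorial_pos (Nat.card β - 1)
    omega

end Sit

omit s in
/-- subgroups of `S × S'` over `A × A'` -/
theorem final {M β γ : Type*} [Group M] [Fintype β] [DecidableEq β] [Fintype γ] [DecidableEq γ]
    (φ : M →* Perm β) (ψ : M →* Perm γ) (h1 : ∀ x, φ x = 1 → ψ x = 1 → x = 1)
    (h2 : ∀ σ ∈ alternatingGroup β, ∃ x, φ x = σ ∧ ψ x = 1)
    (h3 : ∀ τ ∈ alternatingGroup γ, ∃ x, φ x = 1 ∧ ψ x = τ)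
    (h4 : (∀ x, Perm.sign (φ x) = 1) → ∀ x, Perm.sign (ψ x) = 1) :
    ((∀ x, Perm.sign (φ x) = 1) ∧ Nonempty (M ≃* alternatingGroup β × alternatingGroup γ)) ∨
    ((∃ x, Perm.sign (φ x) ≠ 1) ∧ (Nonempty (M ≃* Perm β × Perm γ) ∨
      Nonempty (M ≃* Perm β × alternatingGroup γ) ∨
      Nonempty (M ≃* ((Perm.sign.comp (MonoidHom.fst (Perm β) (Perm γ))) *
        (Perm.sign.comp (MonoidHom.snd (Perm β) (Perm γ)))).ker))) := by
  have hi : Function.Injective (φ.prod ψ) := (injective_iff_map_eq_one _).2 fun x hx =>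
    h1 x (congrArg Prod.fst hx) (congrArg Prod.snd hx)
  have key : ∀ R : Subgroup (Perm β × Perm γ), (∀ x, (φ x, ψ x) ∈ R) →
      (∀ p ∈ R, ∃ x, Perm.sign (φ x) = Perm.sign p.1 ∧ Perm.sign (ψ x) = Perm.sign p.2) →
      Nonempty (M ≃* R) := fun R r1 r2 => by
    refine ⟨(MonoidHom.ofInjective hi).trans (MulEquiv.subgroupCongr (le_antisymm ?_ ?_))⟩
    · rintro _ ⟨x, rfl⟩
      exact r1 x
    · intro p hp
      obtain ⟨x, e1, e2⟩ := r2 p hp
      obtain ⟨y, y1, y2⟩ := h2 (p.1 * (φ x)⁻¹) (by simp [e1])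
      obtain ⟨z, z1, z2⟩ := h3 (p.2 * (ψ x)⁻¹) (by simp [e2])
      exact ⟨y * z * x, Prod.ext (by simp [y1, z1]) (by simp [y2, z2])⟩
  by_cases c1 : ∀ x, Perm.sign (φ x) = 1
  · obtain ⟨e⟩ := key ((alternatingGroup β).prod (alternatingGroup γ))
      (fun x => ⟨c1 x, h4 c1 x⟩) fun p hp => ⟨1, by simpa using hp.1.symm, by simpa using hp.2.symm⟩
    exact Or.inl ⟨c1, ⟨e.trans (prodEquiv _ _)⟩⟩
  obtain ⟨x0, e0⟩ := not_forall.1 c1
  refine Or.inr ⟨⟨x0, e0⟩, ?_⟩
  replace e0 := (Int.units_eq_one_or _).resolve_left e0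
  by_cases c2 : ∀ x, Perm.sign (ψ x) = 1
  · obtain ⟨e⟩ := key ((⊤ : Subgroup (Perm β)).prod (alternatingGroup γ))
      (fun x => ⟨mem_top _, c2 x⟩) fun p hp => by
        rcases Int.units_eq_one_or (Perm.sign p.1) with e | e
        · exact ⟨1, by simp [e], (c2 _).trans hp.2.symm⟩
        · exact ⟨x0, e0.trans e.symm, (c2 _).trans hp.2.symm⟩
    exact Or.inr (Or.inl ⟨e.trans ((prodEquiv _ _).trans (topEquiv.prodCongr (MulEquiv.refl _)))⟩)
  obtain ⟨x1, e1⟩ := not_forall.1 c2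
  replace e1 := (Int.units_eq_one_or _).resolve_left e1
  by_cases c3 : ∀ x, Perm.sign (φ x) = Perm.sign (ψ x)
  · refine Or.inr (Or.inr (key _ (fun x => ?_) fun p hp => ?_))
    · change Perm.sign (φ x) * Perm.sign (ψ x) = 1
      rw [c3, Int.units_mul_self]
    · have hp' : Perm.sign p.1 * Perm.sign p.2 = 1 := hp
      rcases Int.units_eq_one_or (Perm.sign p.1) with e | e
      · rw [e, one_mul] at hp'
        exact ⟨1, by simp [e], by simp [hp']⟩
      · rw [e, neg_one_mul, neg_eq_iff_eq_neg] at hp'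
        exact ⟨x0, e0.trans e.symm, by rw [← c3, e0, hp']⟩
  obtain ⟨x2, e2⟩ := not_forall.1 c3
  obtain ⟨u, v, u1, u2, v1, v2⟩ : ∃ u v, Perm.sign (φ u) = -1 ∧ Perm.sign (ψ u) = 1 ∧
      Perm.sign (φ v) = 1 ∧ Perm.sign (ψ v) = -1 := by
    rcases Int.units_eq_one_or (Perm.sign (φ x2)) with f | f <;>
      rcases Int.units_eq_one_or (Perm.sign (ψ x2)) with f' | f'
    · exact absurd (f.trans f'.symm) e2
    · rcases Int.units_eq_one_or (Perm.sign (ψ x0)) with k | k
      · exact ⟨x0, x2, e0, k, f, f'⟩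
      · exact ⟨x0 * x2, x2, by simp [e0, f], by simp [k, f'], f, f'⟩
    · rcases Int.units_eq_one_or (Perm.sign (φ x1)) with k | k
      · exact ⟨x2, x1, f, f', k, e1⟩
      · exact ⟨x2, x1 * x2, f, f', by simp [k, f], by simp [e1, f']⟩
    · exact absurd (f.trans f'.symm) e2
  obtain ⟨e⟩ := key ⊤ (fun x => mem_top _) fun p _ => by
    rcases Int.units_eq_one_or (Perm.sign p.1) with f | f <;>
      rcases Int.units_eq_one_or (Perm.sign p.2) with f' | f'
    · exact ⟨1, by simp [f], by simp [f']⟩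
    · exact ⟨v, v1.trans f.symm, v2.trans f'.symm⟩
    · exact ⟨u, u1.trans f.symm, u2.trans f'.symm⟩
    · exact ⟨u * v, by simp [u1, v1, f], by simp [u2, v2, f']⟩
  exact Or.inl ⟨e.trans topEquiv⟩

end Cfsg.Agent.LW
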